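import Cfsg.Agent.RootSub.SL2Gen.Ring

/-! With all upper parameters the group is perfect and contains the diagonal elements of the base field. -/

set_option autoImplicit false

namespace Cfsg.Agent.RootSub.SL2Gen

open scoped commutatorElement

variable {k : Type*} [Field k] {R : Type*} [CommRing R] [Algebra k R] {α : R}

local notation "SLR" => Matrix.SpecialLinearGroup (Fin 2) R

theorem exists_sq_ne_one_of_card (h2 : (2 : k) ≠ 0) (h3 : Nat.card k ≠ 3) :
    ∃ c : k, c ≠ 0 ∧ c * c ≠ 1 := by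
  rcases finite_or_infinite k with hk | hk
  · exact exists_sq_ne_one (five_le_card h2 h3)
  · classical
    obtain ⟨c, hc⟩ := Infinite.exists_notMem_finset ({0, 1, -1} : Finset k)
    simp at hc
    refine ⟨c, hc.1, fun h => ?_⟩
    rcases mul_self_eq_one_iff.1 h with h | h
    exacts [hc.2.1 h, hc.2.2 h]

theorem weyl_eq (a b : R) (h : a * b = 1) :
    uu a * vv (-b) * uu a * (uu 1 * vv (-1) * uu 1)⁻¹ = dd a b h := by
  apply sl_ext <;>
    simp only [mul_entry, inv_entry_00, inv_entry_01, inv_entry_10, inv_entry_11] <;> simp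
  · linear_combination -a * h
  · linear_combination h
  · linear_combination -h

theorem dd_mem_gam (hα : IsUnit α) (h : upperSet (gam k α) = ⊤) {a b : R} (hab : a * b = 1) :
    dd a b hab ∈ gam k α := by
  have hu : ∀ x : R, uu x ∈ gam k α := fun x => by
    rw [← mem_upperSet, h]; exact AddSubgroup.mem_top x
  have hv := vv_mem_of_upperSet hα h
  rw [← weyl_eq a b hab]
  exact mul_mem (mul_mem (mul_mem (hu _) (hv _)) (hu _))
    (inv_mem (mul_mem (mul_mem (hu _) (hv _)) (hu _)))

/-- The group is perfect. -/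
theorem gam_le_commutator (h2 : (2 : k) ≠ 0) (h3 : Nat.card k ≠ 3) (hα : IsUnit α)
    (h : upperSet (gam k α) = ⊤) : gam k α ≤ ⁅gam k α, gam k α⁆ := by
  obtain ⟨c, hc0, hc1⟩ := exists_sq_ne_one_of_card h2 h3
  set a := algebraMap k R c
  set b := algebraMap k R c⁻¹
  have hab : a * b = 1 := by rw [← map_mul, mul_inv_cancel₀ hc0, map_one]
  have hd := dd_mem_gam hα h hab
  obtain ⟨e, he⟩ := ((IsUnit.mk0 (c * c - 1) (sub_ne_zero.2 hc1)).map (algebraMap k R))
  have hu : ∀ x : R, uu x ∈ gam k α := fun x => by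
    rw [← mem_upperSet, h]; exact AddSubgroup.mem_top x
  have key : ∀ r : R, uu r ∈ ⁅gam k α, gam k α⁆ := by
    intro r
    have e1 : uu r = ⁅dd a b hab, uu (r * ((e⁻¹ : Rˣ) : R))⁆ := by
      rw [commutatorElement_def, conj_uu_of_upper _ _ (by simp), uu_inv, uu_add]
      congr 1
      have h1 : (e : R) = a * a - 1 := by rw [he]; simp [a]
      simp
      linear_combination (r * ((e⁻¹ : Rˣ) : R)) * h1 - r * e.mul_inv
    rw [e1]
    exact Subgroup.commutator_mem_commutator hd (hu _)
  have key2 : ∀ r : R, vv r ∈ ⁅gam k α, gam k α⁆ := by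
    intro r
    obtain ⟨x, hx⟩ := hα
    let w : SLR := uu 1 * vv (-1) * uu 1
    have hw : w ∈ gam k α :=
      mul_mem (mul_mem (hu _) (vv_mem_of_upperSet (hx ▸ x.isUnit) h _)) (hu _)
    have e1 : vv r = w * uu (-r) * w⁻¹ := by
      apply sl_ext <;> simp only [conj_uu] <;> simp [w, Matrix.mul_apply, Fin.sum_univ_two]
    have hsq := key (-r)
    have e2 : w * uu (-r) * w⁻¹ = ⁅w, uu (-r)⁆ * uu (-r) := by
      simp only [commutatorElement_def]; group
    rw [e1, e2]
    exact mul_mem (Subgroup.commutator_mem_commutator hw (hu _)) hsq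
  rw [gam, Subgroup.closure_le, ← gam]
  rintro _ (⟨x, rfl⟩ | ⟨x, rfl⟩)
  exacts [key _, key2 _]

end Cfsg.Agent.RootSub.SL2Gen
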