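import Cfsg.Agent.RootSub.SL2Gen.Basic

/-!
# Congruence kernels of `SL₂` for a minimal ideal
-/

set_option autoImplicit false
set_option linter.unusedSimpArgs false

namespace Cfsg.Agent.RootSub.SL2Gen

open Matrix

variable {R : Type*} [CommRing R]

local notation "SLR" => Matrix.SpecialLinearGroup (Fin 2) R

/-- Entries of a matrix mapped by a ring homomorphism. -/
theorem map_entry {S : Type*} [CommRing S] (f : R →+* S) (g : SLR) (i j : Fin 2) :
    Matrix.SpecialLinearGroup.map f g i j = f (g i j) := rfl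

/-- Entries of a product. -/
theorem mul_entry (g h : SLR) (i j : Fin 2) :
    (g * h : SLR) i j = g i 0 * h 0 j + g i 1 * h 1 j := by
  rw [Matrix.SpecialLinearGroup.coe_mul, Matrix.mul_apply, Fin.sum_univ_two]

@[simp] theorem inv_entry_00 (g : SLR) : (g⁻¹ : SLR) 0 0 = g 1 1 := by
  simp [Matrix.adjugate_fin_two]

@[simp] theorem inv_entry_01 (g : SLR) : (g⁻¹ : SLR) 0 1 = -g 0 1 := by
  simp [Matrix.adjugate_fin_two]

@[simp] theorem inv_entry_10 (g : SLR) : (g⁻¹ : SLR) 1 0 = -g 1 0 := by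
  simp [Matrix.adjugate_fin_two]

@[simp] theorem inv_entry_11 (g : SLR) : (g⁻¹ : SLR) 1 1 = g 0 0 := by
  simp [Matrix.adjugate_fin_two]

/-- A diagonal element. -/
def dd (a b : R) (h : a * b = 1) : SLR := ⟨!![a, 0; 0, b], by simpa [Matrix.det_fin_two] using h⟩

@[simp] theorem coe_dd (a b : R) (h : a * b = 1) :
    ((dd a b h : SLR) : Matrix (Fin 2) (Fin 2) R) = !![a, 0; 0, b] := rfl

/-- Conjugation of a lower unitriangular element. -/
theorem conj_vv (g : SLR) (r : R) :
    ((g * vv r * g⁻¹ : SLR) : Matrix (Fin 2) (Fin 2) R) =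
      !![1 + r * (g 0 1 * g 1 1), -(r * (g 0 1 * g 0 1)); r * (g 1 1 * g 1 1),
        1 - r * (g 0 1 * g 1 1)] := by
  have hd := det_eq g
  simp only [Matrix.SpecialLinearGroup.coe_mul, Matrix.SpecialLinearGroup.coe_inv,
    Matrix.adjugate_fin_two, coe_vv]
  ext i j
  fin_cases i <;> fin_cases j <;> simp [Matrix.mul_apply, Fin.sum_univ_two]
  all_goals first
    | linear_combination hd
    | linear_combination (0 : R) * hd

/-- An element in the congruence kernel of an ideal. -/
theorem map_eq_one_iff (I : Ideal R) (g : SLR) :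
    Matrix.SpecialLinearGroup.map (Ideal.Quotient.mk I) g = 1 ↔
      g 0 0 - 1 ∈ I ∧ g 0 1 ∈ I ∧ g 1 0 ∈ I ∧ g 1 1 - 1 ∈ I := by
  simp only [← Ideal.Quotient.eq_zero_iff_mem, map_sub, map_one, sub_eq_zero]
  constructor
  · intro h
    refine ⟨?_, ?_, ?_, ?_⟩ <;> simp [← map_entry, h]
  · rintro ⟨h1, h2, h3, h4⟩
    apply sl_ext <;> simp [map_entry, h1, h2, h3, h4]

/-- For a square zero ideal the kernel is generated by its unipotent parts. -/
theorem kernel_mem_of_sq_zero {H : Subgroup SLR} {I : Ideal R}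
    (hII : ∀ x ∈ I, ∀ y ∈ I, x * y = 0) (hu : ∀ x ∈ I, uu x ∈ H) (hv : ∀ x ∈ I, vv x ∈ H)
    {α : R} (hα : IsUnit α) (hvα : vv α ∈ H) {g : SLR}
    (hg : Matrix.SpecialLinearGroup.map (Ideal.Quotient.mk I) g = 1) : g ∈ H := by
  obtain ⟨h00, h01, h10, h11⟩ := (map_eq_one_iff I g).1 hg
  obtain ⟨a, rfl⟩ := hα
  set p := g 0 0 - 1 with hp
  set x := p * ((a⁻¹ : Rˣ) : R)
  have hxa : x * (a : R) = p := by simp [x, mul_assoc]
  have hxI : x ∈ I := I.mul_mem_right _ h00
  have hpp : p * p = 0 := hII _ h00 _ h00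
  have hD : uu x * vv (a : R) * (uu x)⁻¹ * (vv (a : R))⁻¹ ∈ H :=
    mul_mem (mul_mem (mul_mem (hu _ hxI) hvα) (inv_mem (hu _ hxI))) (inv_mem hvα)
  have hd := det_eq g
  have hpq := hII _ h00 _ h11
  have hqr := hII _ h01 _ h10
  have hg11 : g 1 1 = 1 - p := by rw [hp] at hpq ⊢; linear_combination hd - hpq + hqr
  have hxx : x * x = 0 := hII _ hxI _ hxI
  clear_value x
  have key : g = vv (g 1 0) * uu (g 0 1) *
      (vv (-(p * (a : R))) * (uu x * vv (a : R) * (uu x)⁻¹ * (vv (a : R))⁻¹)) := by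
    have hdet : (1 + p) * (1 - p) = 1 := by linear_combination -hpp
    have h1 : uu x * vv (a : R) * (uu x)⁻¹ * (vv (a : R))⁻¹ =
        vv (p * (a : R)) * dd (1 + p) (1 - p) hdet := by
      rw [uu_inv, vv_inv]
      apply sl_ext <;> simp [Matrix.mul_apply, Fin.sum_univ_two]
      · linear_combination hxa + (a : R) * (a : R) * hxx
      · linear_combination -(a : R) * hxx
      · linear_combination (a : R) * hxa - (a : R) * hpp
      · linear_combination -hxa
    rw [h1, ← mul_assoc (vv (-(p * (a : R)))) (vv (p * (a : R))), vv_add, neg_add_cancel, vv_zero,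
      one_mul]
    apply sl_ext <;> simp [Matrix.mul_apply, Fin.sum_univ_two]
    · linear_combination hp.symm
    · linear_combination hII _ h01 _ h00
    · linear_combination -(hII _ h10 _ h00)
    · linear_combination hg11 - (1 - p) * hII _ h10 _ h01
  rw [key]
  exact mul_mem (mul_mem (hv _ h10) (hu _ h01))
    (mul_mem (hv _ (I.neg_mem (I.mul_mem_right _ h00))) hD)

/-- For an ideal that is a field the kernel is generated by its unipotent parts. -/
theorem kernel_mem_of_field {H : Subgroup SLR} {I : Ideal R} {e : R} (he : e ∈ I)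
    (he1 : ∀ x ∈ I, e * x = x) (hinv : ∀ x ∈ I, x ≠ 0 → ∃ s ∈ I, s * x = e)
    (hu : ∀ x ∈ I, uu x ∈ H) (hv : ∀ x ∈ I, vv x ∈ H) {g : SLR}
    (hg : Matrix.SpecialLinearGroup.map (Ideal.Quotient.mk I) g = 1) : g ∈ H := by
  have main : ∀ f : SLR, Matrix.SpecialLinearGroup.map (Ideal.Quotient.mk I) f = 1 →
      f 1 0 ≠ 0 → f ∈ H := by
    intro f hf hne
    obtain ⟨h00, h01, h10, h11⟩ := (map_eq_one_iff I f).1 hf
    obtain ⟨s, hs, hsy⟩ := hinv _ h10 hne
    have hd := det_eq f
    have key : f = uu ((f 0 0 - 1) * s) * vv (f 1 0) * uu ((f 1 1 - 1) * s) := by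
      apply sl_ext <;> simp [Matrix.mul_apply, Fin.sum_univ_two]
      · linear_combination -(he1 _ h00) - (f 0 0 - 1) * hsy
      · linear_combination (-(he1 _ h01)) - f 0 1 * hsy - s * hd
          - ((f 1 1 - 1) * s) * ((f 0 0 - 1) * hsy + he1 _ h00)
      · linear_combination -(he1 _ h11) - (f 1 1 - 1) * hsy
    rw [key]
    exact mul_mem (mul_mem (hu _ (I.mul_mem_left _ hs)) (hv _ h10)) (hu _ (I.mul_mem_left _ hs))
  by_cases h : g 1 0 = 0
  · obtain ⟨h00, h01, h10, h11⟩ := (map_eq_one_iff I g).1 hg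
    rcases eq_or_ne e 0 with he0 | he0
    · have hz : ∀ x ∈ I, x = 0 := fun x hx => by rw [← he1 x hx, he0, zero_mul]
      have : g = 1 := by
        apply sl_ext <;> simp [hz _ h01, h, sub_eq_zero.1 (hz _ h00), sub_eq_zero.1 (hz _ h11)]
      rw [this]; exact one_mem H
    · have hd := det_eq g
      rw [h, mul_zero, sub_zero] at hd
      have hne : g 1 1 * e ≠ 0 := fun h0 => he0 (by linear_combination g 0 0 * h0 - e * hd)
      have h1 := main (g * vv e) (by
        rw [map_mul, hg, one_mul, map_vv, Ideal.Quotient.eq_zero_iff_mem.2 he, vv_zero])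
        (by simpa [Matrix.mul_apply, Fin.sum_univ_two, h] using hne)
      have := mul_mem h1 (inv_mem (hv e he))
      rwa [mul_assoc, mul_inv_cancel, mul_one] at this
  · exact main g hg h

/-- A normal subgroup of `SL₂` of a large field without upper unitriangular elements is scalar. -/
theorem scalar_of_normal {F : Type*} [Field F]
    (N : Subgroup (Matrix.SpecialLinearGroup (Fin 2) F)) [hN : N.Normal]
    (hu : ∀ x, uu x ∈ N → x = 0) (h2 : (2 : F) ≠ 0) (hl : ∃ l : F, l ≠ 0 ∧ l * l ≠ 1)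
    (g : Matrix.SpecialLinearGroup (Fin 2) F) (hg : g ∈ N) :
    g 1 0 = 0 ∧ g 0 1 = 0 ∧ g 1 1 = g 0 0 := by
  obtain ⟨l, hl0, hl1⟩ := hl
  have hupper : ∀ f ∈ N, f 1 0 = 0 → f 0 1 = 0 ∧ f 1 1 = f 0 0 ∧ f 0 0 * f 0 0 = 1 := by
    intro f hf hc
    have hd := det_eq f
    rw [hc, mul_zero, sub_zero] at hd
    have h1 := mul_mem hf (hN.conj_mem _ (inv_mem hf) (uu 1))
    rw [show f * (uu 1 * f⁻¹ * (uu 1)⁻¹) = f * uu 1 * f⁻¹ * (uu 1)⁻¹ by group,
      conj_uu_of_upper f 1 hc, mul_one, uu_inv, uu_add] at h1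
    have ha : f 0 0 * f 0 0 = 1 := by linear_combination hu _ h1
    have he : f 1 1 = f 0 0 := by linear_combination (-f 1 1) * ha + f 0 0 * hd
    have h3 : f * f = uu (2 * f 0 0 * f 0 1) := by
      apply sl_ext <;> simp [Matrix.mul_apply, Fin.sum_univ_two, hc, he, ha]
      ring
    have h4 := hu _ (h3 ▸ mul_mem hf hf)
    refine ⟨?_, he, ha⟩
    linear_combination (f 0 0 / 2) * h4 - f 0 1 * ha + (-(f 0 0 * f 0 0 * f 0 1)) *
      (mul_inv_cancel₀ h2)
  suffices hc : ∀ f ∈ N, f 1 0 = 0 by exact ⟨hc g hg, (hupper g hg (hc g hg)).1, (hupper g hg (hc g hg)).2.1⟩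
  let w : Matrix.SpecialLinearGroup (Fin 2) F := uu 1 * vv (-1) * uu 1
  have hlower : ∀ f ∈ N, f 0 1 = 0 → f 1 0 = 0 ∧ f 1 1 = f 0 0 ∧ f 0 0 * f 0 0 = 1 := by
    intro f hf hb
    have hmem := hN.conj_mem _ hf w
    have hw : ((w * f * w⁻¹ : Matrix.SpecialLinearGroup (Fin 2) F) : Matrix (Fin 2) (Fin 2) F) =
        !![f 1 1, -f 1 0; -f 0 1, f 0 0] := by
      ext i j
      fin_cases i <;> fin_cases j <;>
        simp only [w, Fin.zero_eta, Fin.mk_one, mul_entry, inv_entry_00, inv_entry_01, inv_entry_10, inv_entry_11] <;> simp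
    obtain ⟨h1, h2', h3⟩ := hupper _ hmem (by simp [hw, hb])
    simp [hw] at h1 h2' h3
    exact ⟨h1, h2'.symm, by rwa [← h2'] at h3⟩
  -- elements which are not scalar have trace zero
  have htr : ∀ f ∈ N, f 1 0 ≠ 0 → f 0 0 + f 1 1 = 0 := by
    intro f hf hc
    obtain ⟨x, hx⟩ : ∃ x, x = -(f 0 0) / f 1 0 := ⟨_, rfl⟩
    have hf' := hN.conj_mem _ hf (uu x)
    set f' := uu x * f * (uu x)⁻¹ with hf'def
    have a' : f' 0 0 = 0 := by
      simp only [hf'def, mul_entry, inv_entry_00, inv_entry_01, inv_entry_10, inv_entry_11]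
      simp [hx]
      field_simp; ring
    have c' : f' 1 0 = f 1 0 := by
      simp only [hf'def, mul_entry, inv_entry_00, inv_entry_01, inv_entry_10, inv_entry_11]
      simp
    have t' : f' 1 1 = f 0 0 + f 1 1 := by
      simp only [hf'def, mul_entry, inv_entry_00, inv_entry_01, inv_entry_10, inv_entry_11]
      simp [hx]
      field_simp
    let D : Matrix.SpecialLinearGroup (Fin 2) F := dd l l⁻¹ (mul_inv_cancel₀ hl0)
    have hm := mul_mem (hN.conj_mem _ hf' D) (inv_mem hf')
    set q := D * f' * D⁻¹ * f'⁻¹ with hq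
    have hd' := det_eq f'
    rw [a', c', zero_mul, zero_sub] at hd'
    have q01 : q 0 1 = 0 := by
      simp only [hq, D, mul_entry, inv_entry_00, inv_entry_01, inv_entry_10, inv_entry_11]
      simp [a']
    have q00 : q 0 0 = l * l := by
      simp only [hq, D, mul_entry, inv_entry_00, inv_entry_01, inv_entry_10, inv_entry_11]
      simp [a', c']
      linear_combination (l * l) * hd'
    have q10 : q 1 0 = f 1 0 * (f 0 0 + f 1 1) * (l⁻¹ * l⁻¹ - 1) := by
      simp only [hq, D, mul_entry, inv_entry_00, inv_entry_01, inv_entry_10, inv_entry_11]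
      simp [a', c', t']
      field_simp
      ring
    obtain ⟨hq10, -, -⟩ := hlower q hm q01
    rw [q10] at hq10
    rcases mul_eq_zero.1 hq10 with h | h
    · exact (mul_eq_zero.1 h).resolve_left hc
    · exact absurd (by field_simp at h; linear_combination -h) hl1
  intro f hf
  by_contra hc
  obtain ⟨x, hx⟩ : ∃ x, x = -(f 0 0) / f 1 0 := ⟨_, rfl⟩
  have hf' := hN.conj_mem _ hf (uu x)
  set f' := uu x * f * (uu x)⁻¹ with hf'def
  have a' : f' 0 0 = 0 := by
    simp only [hf'def, mul_entry, inv_entry_00, inv_entry_01, inv_entry_10, inv_entry_11]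
    simp [hx]
    field_simp; ring
  have c' : f' 1 0 = f 1 0 := by
    simp only [hf'def, mul_entry, inv_entry_00, inv_entry_01, inv_entry_10, inv_entry_11]
    simp
  have hd' := det_eq f'
  rw [a', c', zero_mul, zero_sub] at hd'
  have hy : ∀ y : F, y ≠ 0 → 2 + f 1 0 * f 1 0 * (y * y) = 0 := by
    intro y hy
    have hm := mul_mem (hN.conj_mem _ hf' (uu y)) (inv_mem hf')
    set q := uu y * f' * (uu y)⁻¹ * f'⁻¹ with hq
    have q01 : q 0 1 = y := by
      simp only [hq, mul_entry, inv_entry_00, inv_entry_01, inv_entry_10, inv_entry_11]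
      simp [a', c']
      linear_combination y * hd'
    have q00 : q 0 0 = 1 + f 1 0 * f 1 0 * (y * y) := by
      simp only [hq, mul_entry, inv_entry_00, inv_entry_01, inv_entry_10, inv_entry_11]
      simp [a', c']
      linear_combination hd'
    have q11 : q 1 1 = 1 := by
      simp only [hq, mul_entry, inv_entry_00, inv_entry_01, inv_entry_10, inv_entry_11]
      simp [a', c']
      linear_combination hd'
    have hne : q 1 0 ≠ 0 := fun h => hy (q01 ▸ (hupper q hm h).1)
    have := htr q hm hne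
    rw [q00, q11] at this
    linear_combination this
  have h1 := hy 1 one_ne_zero
  have h3 : f 1 0 * f 1 0 * (l * l - 1) = 0 := by linear_combination hy l hl0 - h1
  rcases mul_eq_zero.1 h3 with h | h
  · exact hc (mul_self_eq_zero.1 h)
  · exact hl1 (sub_eq_zero.1 h)

end Cfsg.Agent.RootSub.SL2Gen
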