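import Cfsg.Agent.RootSub.SL2Gen.Basic

/-! Finite base field: the orbit count on the projective line. -/

set_option autoImplicit false

namespace Cfsg.Agent.RootSub.SL2Gen

/-- A finite union of cosets has cardinality divisible by the order of the subgroup. -/
@[to_additive]
theorem card_dvd_of_mul_invariant {G : Type*} [CommGroup G] (E : Subgroup G) (W : Set G)
    (hW : ∀ w ∈ W, ∀ e ∈ E, w * e ∈ W) : Nat.card ↥E ∣ W.ncard := by
  have hWeq : W = QuotientGroup.mk ⁻¹' ((QuotientGroup.mk : G → G ⧸ E) '' W) := by
    refine Set.Subset.antisymm (Set.subset_preimage_image _ _) fun x hx => ?_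
    obtain ⟨w, hw, hwx⟩ := hx
    have := hW w hw _ (QuotientGroup.eq.1 hwx)
    rwa [mul_inv_cancel_left] at this
  refine ⟨Nat.card ↥((QuotientGroup.mk : G → G ⧸ E) '' W), ?_⟩
  rw [← Nat.card_prod, ← Nat.card_coe_set_eq]
  conv_lhs => rw [hWeq]
  exact Nat.card_congr (QuotientGroup.preimageMkEquivSubgroupProdSet E _)

/-- The arithmetic of the orbit count. -/
theorem orbit_arith {s e d n r h : ℤ} (hs : 5 ≤ s) (hed : e * d = s - 1) (he : 0 < e)
    (hn : n = 1 + r * s) (hr : 1 ≤ r) (hh : 0 < h)
    (heq : h * (n * s + 2 - 2 * n) = n * s * e) : n = s + 1 ∧ s ≤ 2 * e + 1 := by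
  have hn1 : 1 < n := by nlinarith
  set δ := h - e with hδ
  have hns : h * (2 * n - 2) = δ * (n * s) := by rw [hδ]; linear_combination -heq
  have hδpos : 0 < δ := by
    by_contra hc
    push Not at hc
    have h1 : 0 < h * (2 * n - 2) := mul_pos hh (by linarith)
    have h2 : δ * (n * s) ≤ 0 :=
      mul_nonpos_of_nonpos_of_nonneg hc (mul_nonneg (by linarith) (by linarith))
    linarith
  have hkey : n * (2 * h - δ * s) = 2 * h := by linear_combination hns
  have hpos : 0 < 2 * h - δ * s := by
    by_contra hc
    push Not at hc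
    have := mul_nonpos_of_nonneg_of_nonpos (show 0 ≤ n by linarith) hc
    linarith
  have hd : 0 < d := by nlinarith
  have hlt : δ * (s - 2) < 2 * e := by
    have : h = e + δ := by rw [hδ]; ring
    rw [this] at hpos
    linarith
  have hbig : d * (δ * (s - 2)) < 2 * (s - 1) := by
    rw [← hed]
    have := mul_lt_mul_of_pos_left hlt hd
    linarith
  have hd2 : d ≤ 2 := by
    by_contra hc
    push Not at hc
    have h1 : 3 * (1 * (s - 2)) ≤ d * (δ * (s - 2)) :=
      mul_le_mul (by linarith) (mul_le_mul_of_nonneg_right hδpos (by linarith)) (by linarith)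
        (by linarith)
    linarith
  have hδ2 : δ ≤ 2 := by
    by_contra hc
    push Not at hc
    have h1 : 1 * (3 * (s - 2)) ≤ d * (δ * (s - 2)) :=
      mul_le_mul hd (mul_le_mul_of_nonneg_right (by linarith) (by linarith))
        (by linarith) (by linarith)
    linarith
  have hns' : s + 1 ≤ n := by
    have := mul_le_mul_of_nonneg_right hr (show 0 ≤ s by linarith)
    linarith
  have hh' : h = e + δ := by rw [hδ]; ring
  rw [hh'] at hkey
  interval_cases d <;> interval_cases δ
  · -- d = 1, δ = 1
    exfalso
    have : e = s - 1 := by linarith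
    subst this
    have h3 : n * s = 2 * s := by linear_combination hkey
    have := mul_right_cancel₀ (show s ≠ 0 by linarith) h3
    linarith
  · have : e = s - 1 := by linarith
    subst this
    exact ⟨by linarith, by linarith⟩
  · refine ⟨?_, by linarith⟩
    have h2 : 2 * e = s - 1 := by linarith
    have h3 : n * 1 = s + 1 := by linear_combination hkey + (1 - n) * h2
    linarith
  · exfalso
    have h1 : (2 : ℤ) * (2 * (s - 2)) < 2 * (s - 1) := hbig
    linarith

end Cfsg.Agent.RootSub.SL2Gen
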