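import Cfsg.Agent.RootSub.SL2Gen.Count

/-!
# Finite fields: counting fixed points on the projective line

The group generated by `uu k` and `vv (k α)` acts on the projective line over the algebraic closure;
counting the incidences of its non-scalar elements shows that the orbit of `∞` is a projective line
over the set of upper parameters, which therefore is the whole field `k(α)`.
-/

set_option autoImplicit false
set_option linter.unusedSimpArgs false
set_option linter.style.haveILetI false

namespace Cfsg.Agent.RootSub.SL2Gen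

open OnePoint

variable {F : Type*} [Field F] {L : Type*} [Field L] [DecidableEq L]

/-- `SL₂(F) → GL₂(L)` for a field homomorphism. -/
noncomputable def toGLMap (ι : F →+* L) :
    Matrix.SpecialLinearGroup (Fin 2) F →* GL (Fin 2) L :=
  Matrix.SpecialLinearGroup.toGL.comp (Matrix.SpecialLinearGroup.map ι)

omit [DecidableEq L] in
theorem toGLMap_apply (ι : F →+* L) (g : Matrix.SpecialLinearGroup (Fin 2) F) (i j : Fin 2) :
    (toGLMap ι g : Matrix (Fin 2) (Fin 2) L) i j = ι (g i j) := rfl

/-- The action on the projective line. -/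
@[reducible]
noncomputable def lineAction (ι : F →+* L) :
    MulAction (Matrix.SpecialLinearGroup (Fin 2) F) (OnePoint L) :=
  MulAction.compHom _ (toGLMap ι)

/-- Scalar matrices. -/
def IsScalarElt (g : Matrix.SpecialLinearGroup (Fin 2) F) : Prop :=
  g 1 0 = 0 ∧ g 0 1 = 0 ∧ g 0 0 = g 1 1

theorem fixed_ncard [IsAlgClosed L] (ι : F →+* L) (h2 : (2 : F) ≠ 0)
    (g : Matrix.SpecialLinearGroup (Fin 2) F) (hg : ¬ IsScalarElt g) :
    {z : OnePoint L | toGLMap ι g • z = z}.Finite ∧
    ((g 0 0 + g 1 1) ^ 2 = 4 → {z : OnePoint L | toGLMap ι g • z = z}.ncard = 1) ∧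
    ((g 0 0 + g 1 1) ^ 2 ≠ 4 → {z : OnePoint L | toGLMap ι g • z = z}.ncard = 2) := by
  have hd := det_eq g
  have hdl : ι (g 0 0) * ι (g 1 1) - ι (g 0 1) * ι (g 1 0) = 1 := by
    rw [← map_mul, ← map_mul, ← map_sub, hd, map_one]
  have hinf : (toGLMap ι g • (∞ : OnePoint L) = ∞) ↔ g 1 0 = 0 := by
    rw [smul_infty_eq_self_iff, toGLMap_apply, map_eq_zero]
  have hsome : ∀ z : L, (toGLMap ι g • (z : OnePoint L) = z) ↔
      ι (g 1 0) * (z * z) + (ι (g 1 1) - ι (g 0 0)) * z + -ι (g 0 1) = 0 := by
    intro z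
    rw [smul_some_eq_ite]
    simp only [toGLMap_apply]
    by_cases h : ι (g 1 0) * z + ι (g 1 1) = 0
    · simp only [h, if_true]
      refine iff_of_false (OnePoint.infty_ne_coe _) fun hq => ?_
      exact one_ne_zero (α := L) (by
        linear_combination (-1 : L) * hdl + (ι (g 0 0) - ι (g 1 0) * z) * h + ι (g 1 0) * hq)
    · simp only [h, if_false]
      rw [OnePoint.coe_eq_coe, div_eq_iff h]
      constructor <;> intro hq <;> linear_combination -hq
  by_cases hc : g 1 0 = 0
  · have had : g 0 0 * g 1 1 = 1 := by rw [hc, mul_zero, sub_zero] at hd; exact hd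
    by_cases hae : g 0 0 = g 1 1
    · have hb : g 0 1 ≠ 0 := fun hb => hg ⟨hc, hb, hae⟩
      have hset : {z : OnePoint L | toGLMap ι g • z = z} = {∞} := by
        ext z
        induction z using OnePoint.rec with
        | infty => exact iff_of_true (hinf.2 hc) rfl
        | coe z =>
          refine iff_of_false (fun h => ?_) (OnePoint.coe_ne_infty z)
          have := (hsome z).1 h
          rw [hc, hae, map_zero, zero_mul, zero_add, sub_self, zero_mul, zero_add, neg_eq_zero,
            map_eq_zero] at this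
          exact hb this
      rw [hset]
      refine ⟨Set.finite_singleton _, fun _ => Set.ncard_singleton _, fun h => absurd ?_ h⟩
      rw [← hae] at had
      linear_combination (4 : F) * had + (g 0 0 + g 1 1 + 2 * g 0 0) * (-hae)
    · have hne : ι (g 1 1) - ι (g 0 0) ≠ 0 := by
        rw [sub_ne_zero]; exact fun h => hae (ι.injective h).symm
      set z₀ := ι (g 0 1) / (ι (g 1 1) - ι (g 0 0))
      have hset : {z : OnePoint L | toGLMap ι g • z = z} = {∞, (z₀ : OnePoint L)} := by
        ext z
        induction z using OnePoint.rec with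
        | infty => exact iff_of_true (hinf.2 hc) (Or.inl rfl)
        | coe z =>
          show toGLMap ι g • (z : OnePoint L) = z ↔ _
          rw [hsome, hc, map_zero, zero_mul, zero_add, Set.mem_insert_iff, Set.mem_singleton_iff,
            or_iff_right (OnePoint.coe_ne_infty z), OnePoint.coe_eq_coe]
          simp only [z₀]
          rw [eq_div_iff hne]
          constructor <;> intro h <;> linear_combination h
      rw [hset]
      refine ⟨Set.toFinite _, fun h => absurd ?_ hae,
        fun _ => Set.ncard_pair (OnePoint.infty_ne_coe z₀)⟩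
      have : (g 0 0 - g 1 1) ^ 2 = 0 := by linear_combination h - 4 * had
      exact sub_eq_zero.1 (pow_eq_zero_iff two_ne_zero |>.1 this)
  · have hC : ι (g 1 0) ≠ 0 := fun h => hc ((map_eq_zero ι).1 h)
    have hL2 : (2 : L) ≠ 0 := by rw [← map_ofNat ι 2]; exact fun h => h2 ((map_eq_zero ι).1 h)
    haveI : NeZero (2 : L) := ⟨hL2⟩
    obtain ⟨δ, hδ⟩ := IsAlgClosed.exists_eq_mul_self ((ι (g 0 0) + ι (g 1 1)) ^ 2 - 4)
    have hdisc : discrim (ι (g 1 0)) (ι (g 1 1) - ι (g 0 0)) (-ι (g 0 1)) = δ * δ := by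
      rw [discrim, ← hδ]; linear_combination (-4 : L) * hdl
    set z₁ := (-(ι (g 1 1) - ι (g 0 0)) + δ) / (2 * ι (g 1 0))
    set z₂ := (-(ι (g 1 1) - ι (g 0 0)) - δ) / (2 * ι (g 1 0))
    have hset : {z : OnePoint L | toGLMap ι g • z = z} = {(z₁ : OnePoint L), (z₂ : OnePoint L)} := by
      ext z
      induction z using OnePoint.rec with
      | infty =>
        refine iff_of_false (fun h => hc (hinf.1 h)) ?_
        rintro (h | h) <;> exact OnePoint.infty_ne_coe _ h
      | coe z =>
        show toGLMap ι g • (z : OnePoint L) = z ↔ _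
        rw [hsome, quadratic_eq_zero_iff hC hdisc, Set.mem_insert_iff, Set.mem_singleton_iff,
          OnePoint.coe_eq_coe, OnePoint.coe_eq_coe]
    rw [hset]
    refine ⟨Set.toFinite _, fun h => ?_, fun h => Set.ncard_pair fun he => h ?_⟩
    · have hδ0 : δ = 0 := by
        have h' : ι ((g 0 0 + g 1 1) ^ 2) = ι 4 := by rw [h]
        rw [map_pow, map_add, map_ofNat] at h'
        rw [← mul_self_eq_zero, ← hδ, h', sub_self]
      have : z₁ = z₂ := by simp [z₁, z₂, hδ0]
      rw [this]; simp
    · have hδ0 : δ = 0 := by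
        have h' := OnePoint.coe_eq_coe.1 he
        simp only [z₁, z₂] at h'
        rw [div_left_inj' (mul_ne_zero hL2 hC)] at h'
        have h'' : 2 * δ = 0 := by linear_combination h'
        exact (mul_eq_zero.1 h'').resolve_left hL2
      rw [hδ0, mul_zero, sub_eq_zero] at hδ
      apply ι.injective
      rw [map_pow, map_add, map_ofNat]
      exact hδ

set_option maxHeartbeats 1600000 in
-- one long double count
theorem upperSet_eq_top_of_finite_field {k : Type*} [Field k] [Finite k] [Algebra k F] [Finite F]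
    (h2 : (2 : k) ≠ 0) (h5 : 5 ≤ Nat.card k) (α : F) (hα : α ≠ 0)
    (hgen : ∀ r : F, ∃ p : Polynomial k, Polynomial.aeval α p = r) :
    upperSet (gam k α) = ⊤ := by
  classical
  have hF2 : (2 : F) ≠ 0 := by
    rw [← map_ofNat (algebraMap k F) 2]
    exact fun h => h2 ((map_eq_zero _).1 h)
  let K := AlgebraicClosure F
  let ι : F →+* K := algebraMap F K
  set H := gam k α with hH
  set S := upperSet H with hS
  letI actK : MulAction ↥H (OnePoint K) := MulAction.compHom _ ((toGLMap ι).comp H.subtype)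
  haveI : Fintype ↥H := Fintype.ofFinite _
  have hsmul : ∀ (g : ↥H) (z : OnePoint K),
      g • z = toGLMap ι (g : Matrix.SpecialLinearGroup (Fin 2) F) • z := fun g z => rfl
  have hinf : ∀ g : ↥H, g • (∞ : OnePoint K) = ∞ ↔
      (g : Matrix.SpecialLinearGroup (Fin 2) F) 1 0 = 0 := by
    intro g
    rw [hsmul, smul_infty_eq_self_iff, toGLMap_apply, map_eq_zero]
  -- scalars
  let Z : Subgroup ↥H := (MulAction.toPermHom ↥H (OnePoint K)).ker
  have hZfix : ∀ g ∈ Z, ∀ z : OnePoint K, g • z = z := fun g hg z => by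
    have := MonoidHom.mem_ker.1 hg
    exact Equiv.ext_iff.1 this z
  have hZiff : ∀ g : ↥H, g ∈ Z ↔ IsScalarElt (g : Matrix.SpecialLinearGroup (Fin 2) F) := by
    intro g
    constructor
    · intro hg
      by_contra hns
      have hfin := (fixed_ncard ι hF2 _ hns).1
      refine Set.infinite_univ (α := OnePoint K) (hfin.subset fun z _ => ?_)
      exact hZfix g hg z
    · rintro ⟨h1, h2', h3⟩
      refine MonoidHom.mem_ker.2 (Equiv.ext fun z => ?_)
      show g • z = z
      induction z using OnePoint.rec with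
      | infty => exact (hinf g).2 h1
      | coe z =>
        rw [hsmul, smul_some_eq_ite]
        simp only [toGLMap_apply, h1, h2', h3, map_zero, zero_mul, zero_add, add_zero]
        have hne : ι ((g : Matrix.SpecialLinearGroup (Fin 2) F) 1 1) ≠ 0 := by
          intro h
          have := det_eq (g : Matrix.SpecialLinearGroup (Fin 2) F)
          rw [(map_eq_zero ι).1 h, h1] at this
          simp at this
        simp only [hne, if_false]
        rw [OnePoint.coe_eq_coe, mul_div_cancel_left₀ _ hne]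
  let Up : ↥H → Prop := fun g =>
    ((g : Matrix.SpecialLinearGroup (Fin 2) F) 0 0 + (g : Matrix.SpecialLinearGroup (Fin 2) F) 1 1) ^ 2 = 4
  have hUpconj : ∀ c g : ↥H, Up g → Up (c * g * c⁻¹) := by
    intro c g hg
    have htr : ∀ M : Matrix.SpecialLinearGroup (Fin 2) F,
        M 0 0 + M 1 1 = Matrix.trace (M : Matrix (Fin 2) (Fin 2) F) := fun M =>
      (Matrix.trace_fin_two _).symm
    show _ ^ 2 = 4
    rw [htr, Subgroup.coe_mul, Subgroup.coe_mul, Matrix.SpecialLinearGroup.coe_mul,
      Matrix.trace_mul_comm, ← Matrix.SpecialLinearGroup.coe_mul, Subgroup.coe_inv,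
      inv_mul_cancel_left, ← htr]
    exact hg
  -- the stabilizer of infinity
  let St := MulAction.stabilizer ↥H (∞ : OnePoint K)
  have hSt : ∀ g : ↥H, g ∈ St ↔ (g : Matrix.SpecialLinearGroup (Fin 2) F) 1 0 = 0 := fun g => hinf g
  have had : ∀ g ∈ St, (g : Matrix.SpecialLinearGroup (Fin 2) F) 0 0 *
      (g : Matrix.SpecialLinearGroup (Fin 2) F) 1 1 = 1 := by
    intro g hg
    have := det_eq (g : Matrix.SpecialLinearGroup (Fin 2) F)
    rwa [(hSt g).1 hg, mul_zero, sub_zero] at this
  let ψ : ↥St →* Fˣ := MonoidHom.toHomUnits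
    { toFun := fun g => ((g : ↥H) : Matrix.SpecialLinearGroup (Fin 2) F) 0 0 *
        ((g : ↥H) : Matrix.SpecialLinearGroup (Fin 2) F) 0 0
      map_one' := by simp
      map_mul' := fun g g' => by
        have := (hSt g').1 g'.2
        simp only [Subgroup.coe_mul, Matrix.SpecialLinearGroup.coe_mul, Matrix.mul_apply,
          Fin.sum_univ_two, this, mul_zero, add_zero]
        ring }
  have hψ : ∀ g : ↥St, (ψ g : F) = ((g : ↥H) : Matrix.SpecialLinearGroup (Fin 2) F) 0 0 *
      ((g : ↥H) : Matrix.SpecialLinearGroup (Fin 2) F) 0 0 := fun g => rfl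
  -- characteristic
  set p := ringChar F
  haveI : CharP F p := ringChar.charP F
  have hp : p.Prime := CharP.char_is_prime F p
  haveI : Fact p.Prime := ⟨hp⟩
  have hpodd : Odd p := hp.odd_of_ne_two fun h => hF2 (by
    have h0 := ringChar.Nat.cast_ringChar (R := F)
    rw [show ringChar F = 2 from h] at h0
    exact_mod_cast h0)
  have huu_pow : ∀ (n : ℕ) (r : F), uu r ^ n = uu ((n : F) * r) := by
    intro n r
    induction n with
    | zero => simp [uu_zero]
    | succ n ih => rw [pow_succ, ih, uu_add]; congr 1; push_cast; ring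
  have hneg : ∀ g ∈ St, (g : Matrix.SpecialLinearGroup (Fin 2) F) 0 0 = -1 →
      ∃ w : ↥H, (w : Matrix.SpecialLinearGroup (Fin 2) F) = -1 := by
    intro g hg ha
    have hd := had g hg
    rw [ha] at hd
    have hg' : (g : Matrix.SpecialLinearGroup (Fin 2) F) =
        -uu (-(g : Matrix.SpecialLinearGroup (Fin 2) F) 0 1) := by
      apply sl_ext <;> simp [ha, (hSt g).1 hg]
      linear_combination -hd
    refine ⟨g ^ p, ?_⟩
    rw [Subgroup.coe_pow, hg', neg_pow, huu_pow, CharP.cast_eq_zero, zero_mul, uu_zero, mul_one,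
      hpodd.neg_one_pow]
  -- the kernel of ψ
  set s := Nat.card ↥S with hs
  set z := Nat.card ↥Z with hz
  have hs5 : 5 ≤ s := by
    refine h5.trans (Nat.card_le_card_of_injective
      (fun c : k => (⟨algebraMap k F c, uu_mem_gam k α c⟩ : ↥S)) fun c c' h => ?_)
    exact (algebraMap k F).injective (congrArg Subtype.val h)
  have hzpos : 0 < z := Nat.card_pos
  have hker : Nat.card ↥ψ.ker = z * s := by
    have hZSt : ∀ g ∈ Z, g ∈ St := fun g hg => hZfix g hg ∞
    have hZa : ∀ g ∈ Z, (g : Matrix.SpecialLinearGroup (Fin 2) F) 0 0 *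
        (g : Matrix.SpecialLinearGroup (Fin 2) F) 0 0 = 1 := by
      intro g hg
      have := had g (hZSt g hg)
      rwa [← ((hZiff g).1 hg).2.2] at this
    let f : ↥Z × ↥S → ↥ψ.ker := fun zr => ⟨⟨(zr.1 : ↥H) * ⟨uu (zr.2 : F), zr.2.2⟩,
      mul_mem (hZSt _ zr.1.2) ((hSt _).2 (by simp))⟩, MonoidHom.mem_ker.2 (Units.ext (by
        rw [hψ, Units.val_one]
        simp [Matrix.mul_apply, Fin.sum_univ_two]
        exact hZa _ zr.1.2))⟩
    rw [hz, hs, ← Nat.card_prod]
    refine (Nat.card_eq_of_bijective f ⟨?_, ?_⟩).symm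
    · rintro ⟨w, r⟩ ⟨w', r'⟩ h
      have h0 : ((w : ↥H) : Matrix.SpecialLinearGroup (Fin 2) F) * uu (r : F) =
          ((w' : ↥H) : Matrix.SpecialLinearGroup (Fin 2) F) * uu (r' : F) :=
        congrArg (fun q : ↥ψ.ker => (((q : ↥St) : ↥H) : Matrix.SpecialLinearGroup (Fin 2) F)) h
      obtain ⟨w1, w2, w3⟩ := (hZiff _).1 w.2
      obtain ⟨w1', w2', w3'⟩ := (hZiff _).1 w'.2
      have e00 := congrArg (fun q : Matrix.SpecialLinearGroup (Fin 2) F => q 0 0) h0
      have e01 := congrArg (fun q : Matrix.SpecialLinearGroup (Fin 2) F => q 0 1) h0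
      simp [Matrix.mul_apply, Fin.sum_univ_two, w2, w2'] at e00 e01
      rw [← e00] at e01
      have hne : ((w : ↥H) : Matrix.SpecialLinearGroup (Fin 2) F) 0 0 ≠ 0 := fun h0' => by
        have := hZa _ w.2
        rw [h0'] at this
        simp at this
      have hr : (r : F) = r' := mul_left_cancel₀ hne e01
      have hw : w = w' := by
        refine Subtype.ext (Subtype.ext (sl_ext e00 (by rw [w2, w2']) (by rw [w1, w1']) ?_))
        rw [← w3, ← w3', e00]
      exact Prod.ext hw (Subtype.ext hr)
    · rintro ⟨⟨g, hg⟩, hgk⟩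
      have ha : (g : Matrix.SpecialLinearGroup (Fin 2) F) 0 0 *
          (g : Matrix.SpecialLinearGroup (Fin 2) F) 0 0 = 1 :=
        congrArg Units.val (MonoidHom.mem_ker.1 hgk)
      rcases mul_self_eq_one_iff.1 ha with h1 | h1
      · have hd := had g hg
        rw [h1, one_mul] at hd
        have hu : (g : Matrix.SpecialLinearGroup (Fin 2) F) =
            uu ((g : Matrix.SpecialLinearGroup (Fin 2) F) 0 1) := by
          apply sl_ext <;> simp [h1, hd, (hSt g).1 hg]
        have hmem : uu ((g : Matrix.SpecialLinearGroup (Fin 2) F) 0 1) ∈ H := hu ▸ g.2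
        refine ⟨(1, ⟨_, hmem⟩), Subtype.ext (Subtype.ext (Subtype.ext ?_))⟩
        simp only [f, Subgroup.coe_mul, Subgroup.coe_one, one_mul]
        exact hu.symm
      · obtain ⟨w, hw⟩ := hneg g hg h1
        have hwZ : w ∈ Z := (hZiff w).2 (by simp [IsScalarElt, hw])
        have hd := had g hg
        rw [h1] at hd
        have hu : (g : Matrix.SpecialLinearGroup (Fin 2) F) = (-1) *
            uu (-(g : Matrix.SpecialLinearGroup (Fin 2) F) 0 1) := by
          rw [neg_one_mul]
          apply sl_ext <;> simp [h1, (hSt g).1 hg]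
          linear_combination -hd
        have hmem : uu (-(g : Matrix.SpecialLinearGroup (Fin 2) F) 0 1) ∈ H := by
          have := mul_mem (inv_mem w.2) g.2
          rwa [hw, hu, inv_mul_cancel_left] at this
        refine ⟨(⟨w, hwZ⟩, ⟨_, hmem⟩), Subtype.ext (Subtype.ext (Subtype.ext ?_))⟩
        simp only [f, Subgroup.coe_mul, hw]
        exact hu.symm
  set e := Nat.card ↥ψ.range with he
  have hepos : 0 < e := Nat.card_pos
  have hcardSt : Nat.card ↥St = e * (z * s) := by
    rw [Subgroup.card_eq_card_quotient_mul_card_subgroup ψ.ker, hker, he,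
      Nat.card_congr (QuotientGroup.quotientKerEquivRange ψ).toEquiv]
  have hES : ∀ u ∈ ψ.range, ∀ r ∈ S, (u : F) * r ∈ S := by
    rintro _ ⟨g, rfl⟩ r hr
    rw [hψ]
    exact sq_mul_mem_upperSet (g : ↥H).2 ((hSt g).1 g.2) hr
  have hed : e ∣ s - 1 := by
    let W : Set Fˣ := {w | (w : F) ∈ S}
    have hWcard : W.ncard = s - 1 := by
      rw [← Set.ncard_image_of_injective W Units.val_injective, hs,
        show Units.val '' W = (S : Set F) \ {0} by
          ext r
          exact ⟨by rintro ⟨w, hw, rfl⟩; exact ⟨hw, w.ne_zero⟩,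
            fun h => ⟨Units.mk0 r h.2, h.1, rfl⟩⟩,
        Set.ncard_sdiff_singleton_of_mem (zero_mem S)]
      exact congrArg (· - 1) (Nat.card_coe_set_eq (S : Set F)).symm
    rw [← hWcard]
    exact card_dvd_of_mul_invariant _ W fun w hw u hu => by
      show ((w * u : Fˣ) : F) ∈ S
      rw [Units.val_mul, mul_comm]
      exact hES u hu _ hw
  -- unipotent elements fix a point of the orbit of infinity
  let Ω : Set (OnePoint K) := MulAction.orbit ↥H ∞
  have hΩfin : Ω.Finite := Set.finite_range _
  have hUpfix : ∀ g : ↥H, g ∉ Z → Up g → ∀ x : OnePoint K, g • x = x → x ∈ Ω := by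
    intro g hgZ hgU x hx
    have hns : ¬ IsScalarElt (g : Matrix.SpecialLinearGroup (Fin 2) F) := fun h => hgZ ((hZiff g).2 h)
    let P0 : Subgroup ↥H :=
      { carrier := {w | ∃ r, (w : Matrix.SpecialLinearGroup (Fin 2) F) = uu r}
        one_mem' := ⟨0, by simp [uu_zero]⟩
        mul_mem' := by
          rintro a b ⟨r, hr⟩ ⟨t, ht⟩; exact ⟨r + t, by simp [hr, ht, uu_add]⟩
        inv_mem' := by rintro a ⟨r, hr⟩; exact ⟨-r, by simp [hr, uu_inv]⟩ }
    have hP0 : IsPGroup p ↥P0 := by
      rintro ⟨w, r, hr⟩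
      refine ⟨1, Subtype.ext (Subtype.ext ?_)⟩
      simp [hr, huu_pow]
      exact uu_zero
    obtain ⟨P, hP⟩ := hP0.exists_le_sylow
    have hu1 : (⟨uu 1, by have := uu_mem_gam k α 1; rwa [map_one] at this⟩ : ↥H) ∈ (P : Subgroup ↥H) :=
      hP ⟨1, rfl⟩
    set u1 : ↥H := ⟨uu 1, _⟩ with hu1def
    have hPinf : ∀ w ∈ (P : Subgroup ↥H), w • (∞ : OnePoint K) = ∞ := by
      haveI : Nontrivial ↥(P : Subgroup ↥H) := ⟨⟨⟨u1, hu1⟩, 1, fun h => by
        have := congrArg (fun q : ↥(P : Subgroup ↥H) =>
          ((q : ↥H) : Matrix.SpecialLinearGroup (Fin 2) F) 0 1) h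
        simp [hu1def] at this⟩⟩
      obtain ⟨⟨c, hc⟩, hc1⟩ := @exists_ne _ (P.isPGroup'.center_nontrivial) 1
      have hcc : ∀ w ∈ (P : Subgroup ↥H), w * (c : ↥H) = (c : ↥H) * w := fun w hw =>
        congrArg Subtype.val (Subgroup.mem_center_iff.1 hc ⟨w, hw⟩)
      obtain ⟨c10, c11⟩ := of_comm_uu_one _ (congrArg Subtype.val (hcc u1 hu1)).symm
      have hcns : ¬ IsScalarElt ((c : ↥H) : Matrix.SpecialLinearGroup (Fin 2) F) := by
        intro hsc
        obtain ⟨n, hn⟩ := P.isPGroup' c
        have hsq : (c : ↥H) ^ 2 = 1 := by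
          have hd := det_eq ((c : ↥H) : Matrix.SpecialLinearGroup (Fin 2) F)
          rw [c10, mul_zero, sub_zero, c11] at hd
          refine Subtype.ext ?_
          apply sl_ext <;> simp [pow_two, Matrix.mul_apply, Fin.sum_univ_two, c10, c11, hsc.2.1, hd]
        have h1 : orderOf (c : ↥H) ∣ p ^ n :=
          orderOf_dvd_of_pow_eq_one (congrArg Subtype.val hn)
        have h2' : orderOf (c : ↥H) ∣ 2 := orderOf_dvd_of_pow_eq_one hsq
        refine hc1 (Subtype.ext (Subtype.ext (orderOf_eq_one_iff.1 ?_)))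
        exact Nat.eq_one_of_dvd_coprimes (Nat.Coprime.pow_left n ((Nat.coprime_two_right).2 hpodd))
          h1 h2'
      have hcfix : {y : OnePoint K | toGLMap ι ((c : ↥H) : Matrix.SpecialLinearGroup (Fin 2) F) • y = y}
          = {∞} := by
        obtain ⟨hfin, h1, -⟩ := fixed_ncard ι hF2 _ hcns
        have hd := det_eq ((c : ↥H) : Matrix.SpecialLinearGroup (Fin 2) F)
        rw [c10, mul_zero, sub_zero, c11] at hd
        have hcard := h1 (by rw [c11]; linear_combination 4 * hd)
        refine (Set.eq_of_subset_of_ncard_le (Set.singleton_subset_iff.2 ?_) ?_ hfin).symm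
        · exact (hinf c).2 c10
        · rw [hcard, Set.ncard_singleton]
      intro w hw
      have : (c : ↥H) • (w • (∞ : OnePoint K)) = w • (∞ : OnePoint K) := by
        rw [← mul_smul, ← hcc w hw, mul_smul, (hinf c).2 c10]
      exact hcfix.le this
    -- `g * g` is a nontrivial `p`-element
    have hCH : ∀ i j, ((g * g : ↥H) : Matrix.SpecialLinearGroup (Fin 2) F) i j =
        ((g : Matrix.SpecialLinearGroup (Fin 2) F) 0 0 + (g : Matrix.SpecialLinearGroup (Fin 2) F) 1 1) *
          (g : Matrix.SpecialLinearGroup (Fin 2) F) i j - (if i = j then 1 else 0) := by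
      have hd := det_eq (g : Matrix.SpecialLinearGroup (Fin 2) F)
      intro i j
      fin_cases i <;> fin_cases j <;> simp [Matrix.mul_apply, Fin.sum_univ_two]
      · linear_combination -hd
      · ring
      · ring
      · linear_combination -hd
    set t := (g : Matrix.SpecialLinearGroup (Fin 2) F) 0 0 + (g : Matrix.SpecialLinearGroup (Fin 2) F) 1 1
      with htdef
    have ht : t * t = 4 := by rw [← pow_two]; exact hgU
    have htne : t ≠ 0 := fun h => by
      rw [h, zero_mul] at ht
      exact mul_ne_zero hF2 hF2 (by rw [show (2 : F) * 2 = 4 by norm_num]; exact ht.symm)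
    obtain ⟨A, hA⟩ : ∃ A : Matrix (Fin 2) (Fin 2) F,
        A = (((g * g : ↥H) : Matrix.SpecialLinearGroup (Fin 2) F) : Matrix (Fin 2) (Fin 2) F) :=
      ⟨_, rfl⟩
    have hA1 : A - 1 = !![t * (g : Matrix.SpecialLinearGroup (Fin 2) F) 0 0 - 2,
        t * (g : Matrix.SpecialLinearGroup (Fin 2) F) 0 1;
        t * (g : Matrix.SpecialLinearGroup (Fin 2) F) 1 0,
        t * (g : Matrix.SpecialLinearGroup (Fin 2) F) 1 1 - 2] := by
      ext i j
      rw [Matrix.sub_apply, hA, hCH]
      fin_cases i <;> fin_cases j <;> simp <;> ring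
    have hnil : (A - 1) * (A - 1) = 0 := by
      have hd := det_eq (g : Matrix.SpecialLinearGroup (Fin 2) F)
      rw [hA1]
      rw [htdef] at ht ⊢
      generalize (g : Matrix.SpecialLinearGroup (Fin 2) F) 0 0 = a at hd ht ⊢
      generalize (g : Matrix.SpecialLinearGroup (Fin 2) F) 0 1 = b at hd ht ⊢
      generalize (g : Matrix.SpecialLinearGroup (Fin 2) F) 1 0 = c at hd ht ⊢
      generalize (g : Matrix.SpecialLinearGroup (Fin 2) F) 1 1 = d at hd ht ⊢
      ext i j
      fin_cases i <;> fin_cases j <;> simp [Matrix.mul_apply, Fin.sum_univ_two]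
      · linear_combination ((a + d) * a - 1) * ht - (a + d) * (a + d) * hd
      · linear_combination ((a + d) * b) * ht
      · linear_combination ((a + d) * c) * ht
      · linear_combination ((a + d) * d - 1) * ht - (a + d) * (a + d) * hd
    have hgp : (g * g) ^ p = 1 := by
      have hN : ∀ n : ℕ, A ^ n = 1 + n • (A - 1) := by
        intro n
        induction n with
        | zero => simp
        | succ n ih =>
          rw [pow_succ, ih]
          nth_rw 2 [show A = 1 + (A - 1) by abel]
          rw [add_mul, one_mul, smul_mul_assoc, mul_add, mul_one, hnil, add_zero, succ_nsmul]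
          abel
      refine Subtype.ext (Subtype.ext ?_)
      rw [Subgroup.coe_pow, Matrix.SpecialLinearGroup.coe_pow, ← hA, hN]
      have : p • (A - 1) = 0 := by
        ext i j
        simp [CharP.cast_eq_zero]
      rw [this, add_zero]
      rfl
    have hhns : ¬ IsScalarElt ((g * g : ↥H) : Matrix.SpecialLinearGroup (Fin 2) F) := by
      rintro ⟨h1, h2', h3⟩
      rw [hCH] at h1 h2' h3
      rw [hCH 1 1] at h3
      simp at h1 h2' h3
      refine hns ⟨?_, ?_, ?_⟩
      · exact h1.resolve_left htne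
      · exact h2'.resolve_left htne
      · exact h3.resolve_right htne
    obtain ⟨P', hP'⟩ := (show IsPGroup p ↥(Subgroup.zpowers (g * g)) by
      rintro ⟨w, hw⟩
      obtain ⟨i, rfl⟩ := Subgroup.mem_zpowers_iff.1 hw
      refine ⟨1, Subtype.ext ?_⟩
      show ((g * g) ^ i) ^ (p ^ 1) = 1
      rw [pow_one, ← zpow_natCast, ← zpow_mul, mul_comm, zpow_mul, zpow_natCast, hgp, one_zpow]
      ).exists_le_sylow
    obtain ⟨c, hc⟩ := MulAction.exists_smul_eq ↥H P P'
    have hcinf : (g * g) • (c • (∞ : OnePoint K)) = c • (∞ : OnePoint K) := by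
      have hmem : g * g ∈ ((c • P : Sylow p ↥H) : Subgroup ↥H) := by
        rw [hc]; exact hP' (Subgroup.mem_zpowers _)
      rw [Sylow.coe_subgroup_smul, Subgroup.mem_pointwise_smul_iff_inv_smul_mem] at hmem
      have h1 := hPinf _ hmem
      simp only [MulAut.smul_def, MulAut.inv_def, MulAut.conj_symm_apply] at h1
      have h2' := congrArg (c • ·) h1
      simp only [← mul_smul] at h2'
      rwa [show c * (c⁻¹ * (g * g) * c) = g * g * c by group, mul_smul] at h2'
    obtain ⟨hfin, h1, -⟩ := fixed_ncard ι hF2 _ hhns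
    have hcard := h1 (by
      rw [hCH 0 0, hCH 1 1]
      simp only [if_true]
      rw [show ∀ a d : F, t * a - 1 + (t * d - 1) = t * (a + d) - 2 from fun a d => by ring,
        ← htdef]
      linear_combination (t * t) * ht)
    obtain ⟨q, hq⟩ := Set.ncard_eq_one.1 hcard
    have hx2 : x = q := hq.le (show (g * g) • x = x by rw [mul_smul, hx, hx])
    have hcq : c • (∞ : OnePoint K) = q := hq.le hcinf
    exact ⟨c, by rw [hx2, ← hcq]⟩
  -- double counting
  let NS : Finset ↥H := Finset.univ.filter (fun g => g ∉ Z)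
  have hfixfin : ∀ g ∈ NS, {x : OnePoint K | g • x = x}.Finite := fun g hg =>
    (fixed_ncard ι hF2 _ fun h => (Finset.mem_filter.1 hg).2 ((hZiff g).2 h)).1
  let X : Finset (OnePoint K) := NS.attach.biUnion fun g => (hfixfin g g.2).toFinset
  have hX : ∀ g ∈ NS, ∀ x : OnePoint K, g • x = x → x ∈ X := fun g hg x hx =>
    Finset.mem_biUnion.2 ⟨⟨g, hg⟩, Finset.mem_attach _ _, (hfixfin g hg).mem_toFinset.2 hx⟩
  let fixer : OnePoint K → ℕ := fun x => (NS.filter fun g => g • x = x).card
  have hfixer : ∀ x, fixer x + z = Nat.card ↥(MulAction.stabilizer ↥H x) := by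
    intro x
    have hle : Z ≤ MulAction.stabilizer ↥H x := fun g hg => hZfix g hg x
    have e1 : Nat.card ↥(MulAction.stabilizer ↥H x) = (Finset.univ.filter fun g : ↥H => g • x = x).card := by
      rw [← SetLike.coe_sort_coe, Nat.card_coe_set_eq, ← Set.ncard_coe_finset]
      congr 1; ext g; simp
    have e2 : z = ((Finset.univ.filter fun g : ↥H => g • x = x).filter fun g => g ∈ Z).card := by
      rw [hz, ← SetLike.coe_sort_coe, Nat.card_coe_set_eq, ← Set.ncard_coe_finset]
      congr 1; ext g
      simp only [Finset.coe_filter, Finset.mem_filter, Finset.mem_univ, true_and]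
      exact ⟨fun h => ⟨hle h, h⟩, fun h => h.2⟩
    have e3 : fixer x = ((Finset.univ.filter fun g : ↥H => g • x = x).filter fun g => g ∉ Z).card := by
      simp only [fixer, NS, Finset.filter_filter]
      congr 1; ext g; simp [and_comm]
    rw [e1, e2, e3, add_comm, Finset.card_filter_add_card_filter_not]
  have hfixcard : ∀ g ∈ NS, (X.filter fun x => g • x = x).card = if Up g then 1 else 2 := by
    intro g hg
    have hns : ¬ IsScalarElt (g : Matrix.SpecialLinearGroup (Fin 2) F) :=
      fun h => (Finset.mem_filter.1 hg).2 ((hZiff g).2 h)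
    obtain ⟨-, h1, h2'⟩ := fixed_ncard ι hF2 _ hns
    have e : ((X.filter fun x => g • x = x).card) = {x : OnePoint K | g • x = x}.ncard := by
      rw [← Set.ncard_coe_finset]
      congr 1; ext x
      simpa using fun h => hX g hg x h
    rw [e]
    split_ifs with hU
    exacts [h1 hU, h2' hU]
  set Ωf : Finset (OnePoint K) := hΩfin.toFinset with hΩf
  set n := Nat.card ↥Ω with hn
  have hΩcard : Ωf.card = n := by
    rw [hn, Nat.card_coe_set_eq, Set.ncard_eq_toFinset_card _ hΩfin]
  have hHcard : n * (e * (z * s)) = Nat.card ↥H := by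
    rw [← hcardSt, hn, ← Nat.card_prod]
    exact Nat.card_congr (MulAction.orbitProdStabilizerEquivGroup ↥H (∞ : OnePoint K))
  have hstab : ∀ x y : OnePoint K, y ∈ MulAction.orbit ↥H x →
      Nat.card ↥(MulAction.stabilizer ↥H y) = Nat.card ↥(MulAction.stabilizer ↥H x) := by
    rintro x _ ⟨c, rfl⟩
    exact Nat.card_congr (MulAction.stabilizerEquivStabilizer (g := c) rfl).symm.toEquiv
  -- unipotent incidences
  have hU : (NS.filter fun g => Up g).card + n * z = n * (z * s) := by
    let Pu := NS.filter fun g => Up g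
    have hbase : (Pu.filter fun g => g • (∞ : OnePoint K) = ∞).card + z = z * s := by
      rw [← hker]
      have hmap : (Pu.filter fun g => g • (∞ : OnePoint K) = ∞) =
          (Finset.univ.filter fun g : ↥H => g ∈ ψ.ker.map St.subtype).filter fun g => g ∉ Z := by
        ext g
        simp only [Pu, NS, Finset.mem_filter, Finset.mem_univ, true_and, Subgroup.mem_map]
        constructor
        · rintro ⟨⟨hgZ, hgU⟩, hgfix⟩
          refine ⟨⟨⟨g, hgfix⟩, MonoidHom.mem_ker.2 (Units.ext ?_), rfl⟩, hgZ⟩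
          rw [hψ, Units.val_one]
          have hd := had g hgfix
          have hgU' : ((g : Matrix.SpecialLinearGroup (Fin 2) F) 0 0 +
            (g : Matrix.SpecialLinearGroup (Fin 2) F) 1 1) ^ 2 = 4 := hgU
          have heq : (g : Matrix.SpecialLinearGroup (Fin 2) F) 0 0 =
              (g : Matrix.SpecialLinearGroup (Fin 2) F) 1 1 :=
            sub_eq_zero.1 (pow_eq_zero_iff two_ne_zero |>.1
              (show ((g : Matrix.SpecialLinearGroup (Fin 2) F) 0 0 -
                (g : Matrix.SpecialLinearGroup (Fin 2) F) 1 1) ^ 2 = 0 by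
                linear_combination hgU' - 4 * hd))
          rw [← heq] at hd
          exact hd
        · rintro ⟨⟨w, hw, rfl⟩, hgZ⟩
          refine ⟨⟨hgZ, ?_⟩, w.2⟩
          have h1 := congrArg Units.val (MonoidHom.mem_ker.1 hw)
          rw [hψ, Units.val_one] at h1
          have hd := had w w.2
          show _ ^ 2 = 4
          have heq : ((w : ↥H) : Matrix.SpecialLinearGroup (Fin 2) F) 1 1 =
              ((w : ↥H) : Matrix.SpecialLinearGroup (Fin 2) F) 0 0 := by
            linear_combination (-((w : ↥H) : Matrix.SpecialLinearGroup (Fin 2) F) 1 1) * h1 +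
              ((w : ↥H) : Matrix.SpecialLinearGroup (Fin 2) F) 0 0 * hd
          show (((w : ↥H) : Matrix.SpecialLinearGroup (Fin 2) F) 0 0 +
            ((w : ↥H) : Matrix.SpecialLinearGroup (Fin 2) F) 1 1) ^ 2 = 4
          rw [heq]
          linear_combination 4 * h1
      have e1 : Nat.card ↥ψ.ker = (Finset.univ.filter fun g : ↥H => g ∈ ψ.ker.map St.subtype).card := by
        rw [← Subgroup.card_map_of_injective (Subgroup.subtype_injective St), ← SetLike.coe_sort_coe,
          Nat.card_coe_set_eq, ← Set.ncard_coe_finset]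
        congr 1; ext g; simp
      have e2 : z = ((Finset.univ.filter fun g : ↥H => g ∈ ψ.ker.map St.subtype).filter fun g => g ∈ Z).card := by
        rw [hz, ← SetLike.coe_sort_coe, Nat.card_coe_set_eq, ← Set.ncard_coe_finset]
        congr 1; ext g
        simp only [Finset.coe_filter, Finset.mem_filter, Finset.mem_univ, true_and]
        refine ⟨fun h => ⟨⟨⟨g, hZfix g h ∞⟩, MonoidHom.mem_ker.2 (Units.ext ?_), rfl⟩, h⟩, fun h => h.2⟩
        rw [hψ, Units.val_one]
        have hd := had g (hZfix g h ∞)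
        rwa [← ((hZiff g).1 h).2.2] at hd
      rw [hmap, e1, e2, add_comm, Finset.card_filter_add_card_filter_not]
    have key := Finset.sum_card_bipartiteAbove_eq_sum_card_bipartiteBelow
      (s := Pu) (t := Ωf) (fun g x => g • x = x)
    have hl : ∑ g ∈ Pu, (Ωf.bipartiteAbove (fun g x => g • x = x) g).card = Pu.card := by
      rw [Finset.card_eq_sum_ones Pu]
      refine Finset.sum_congr rfl fun g hg => ?_
      obtain ⟨hgNS, hgU⟩ := Finset.mem_filter.1 hg
      have h1 := hfixcard g hgNS
      rw [if_pos hgU] at h1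
      rw [← h1]
      congr 1
      ext x
      simp only [Finset.bipartiteAbove, Finset.mem_filter, hΩf, Set.Finite.mem_toFinset]
      exact ⟨fun h => ⟨hX g hgNS x h.2, h.2⟩,
        fun h => ⟨hUpfix g (Finset.mem_filter.1 hgNS).2 hgU x h.2, h.2⟩⟩
    have hr : ∀ x ∈ Ωf, (Pu.bipartiteBelow (fun g x => g • x = x) x).card + z = z * s := by
      intro x hx
      obtain ⟨c, rfl⟩ := hΩfin.mem_toFinset.1 hx
      rw [← hbase]
      congr 1
      have himg : Pu.bipartiteBelow (fun g x => g • x = x) (c • (∞ : OnePoint K)) =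
          (Pu.filter fun g => g • (∞ : OnePoint K) = ∞).image (fun g => c * g * c⁻¹) := by
        ext g
        simp only [Finset.bipartiteBelow, Finset.mem_filter, Finset.mem_image, Pu, NS,
          Finset.mem_univ, true_and]
        constructor
        · rintro ⟨⟨hgZ, hgU⟩, hfix⟩
          refine ⟨c⁻¹ * g * c, ⟨⟨fun h => hgZ ?_, ?_⟩, ?_⟩, by group⟩
          · have := Subgroup.Normal.conj_mem inferInstance _ h c
            rwa [show c * (c⁻¹ * g * c) * c⁻¹ = g by group] at this
          · simpa using hUpconj c⁻¹ g hgU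
          · rw [mul_smul, mul_smul, hfix, inv_smul_smul]
        · rintro ⟨w, ⟨⟨hwZ, hwU⟩, hfix⟩, rfl⟩
          refine ⟨⟨fun h => hwZ ?_, hUpconj c w hwU⟩, ?_⟩
          · have := Subgroup.Normal.conj_mem inferInstance _ h c⁻¹
            rwa [inv_inv, show c⁻¹ * (c * w * c⁻¹) * c = w by group] at this
          · rw [mul_smul, mul_smul, inv_smul_smul, hfix]
      rw [himg, Finset.card_image_of_injective _ fun a b h => by simpa using h]
    have := Finset.sum_congr rfl hr
    rw [Finset.sum_add_distrib, ← key, hl, Finset.sum_const, Finset.sum_const, smul_eq_mul,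
      smul_eq_mul, hΩcard] at this
    exact this
  -- all incidences
  have hΩX : Ωf ⊆ X := by
    intro x hx
    obtain ⟨c, rfl⟩ := hΩfin.mem_toFinset.1 hx
    let u1 : ↥H := ⟨uu (algebraMap k F 1), uu_mem_gam k α 1⟩
    have hu1 : u1 ∉ Z := fun h => by
      have := ((hZiff u1).1 h).2.1
      simp [u1] at this
    refine hX (c * u1 * c⁻¹) (Finset.mem_filter.2 ⟨Finset.mem_univ _, fun h => hu1 ?_⟩) _ ?_
    · have := Subgroup.Normal.conj_mem inferInstance _ h c⁻¹
      rwa [inv_inv, show c⁻¹ * (c * u1 * c⁻¹) * c = u1 by group] at this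
    · show (c * u1 * c⁻¹) • (c • (∞ : OnePoint K)) = c • (∞ : OnePoint K)
      rw [← mul_smul, inv_mul_cancel_right, mul_smul, (hinf u1).2 (by simp [u1])]
  have hNS : NS.card + z = Nat.card ↥H := by
    have : z = (Finset.univ.filter fun g : ↥H => g ∈ Z).card := by
      rw [hz, ← SetLike.coe_sort_coe, Nat.card_coe_set_eq, ← Set.ncard_coe_finset]
      congr 1; ext g; simp
    rw [this, add_comm, Finset.card_filter_add_card_filter_not, Nat.card_eq_fintype_card,
      Finset.card_univ]
  have hmain : ∑ x ∈ X, fixer x + (NS.filter fun g => Up g).card = 2 * NS.card := by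
    have key := Finset.sum_card_bipartiteAbove_eq_sum_card_bipartiteBelow
      (s := NS) (t := X) (fun g x => g • x = x)
    have hl : ∀ g ∈ NS, (X.bipartiteAbove (fun g x => g • x = x) g).card + (if Up g then 1 else 0) = 2 := by
      intro g hg
      have := hfixcard g hg
      simp only [Finset.bipartiteAbove]
      rw [this]
      split_ifs <;> rfl
    have := Finset.sum_congr rfl hl
    rw [Finset.sum_add_distrib, key, ← Finset.card_filter, Finset.sum_const, smul_eq_mul,
      mul_comm] at this
    exact this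
  have hΩsum : ∑ x ∈ Ωf, (fixer x + z) = n * (e * (z * s)) := by
    rw [Finset.sum_congr rfl (fun x hx => ?_), Finset.sum_const, smul_eq_mul, hΩcard]
    rw [hfixer, hstab _ _ (hΩfin.mem_toFinset.1 hx)]
    exact hcardSt
  rw [Finset.sum_add_distrib, Finset.sum_const, smul_eq_mul, hΩcard] at hΩsum
  rw [← Finset.sum_sdiff hΩX] at hmain
  have horb : ∀ y ∈ X \ Ωf, ∃ O : Finset (OnePoint K), y ∈ O ∧ O ⊆ X \ Ωf ∧
      (∀ x, x ∈ O ↔ x ∈ MulAction.orbit ↥H y) ∧
      ∑ x ∈ O, fixer x + O.card * z = Nat.card ↥H ∧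
      ∃ h, 2 ≤ h ∧ O.card * (h * z) = Nat.card ↥H := by
    intro y hy
    obtain ⟨hyX, hyΩ⟩ := Finset.mem_sdiff.1 hy
    have hOfin : (MulAction.orbit ↥H y).Finite := Set.finite_range _
    refine ⟨hOfin.toFinset, hOfin.mem_toFinset.2 (MulAction.mem_orbit_self y), ?_,
      fun x => hOfin.mem_toFinset, ?_, ?_⟩
    · intro x hx
      obtain ⟨c, rfl⟩ := hOfin.mem_toFinset.1 hx
      refine Finset.mem_sdiff.2 ⟨?_, fun h => hyΩ (hΩfin.mem_toFinset.2 ?_)⟩
      · obtain ⟨g, -, hg⟩ := Finset.mem_biUnion.1 hyX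
        have hgfix : (g : ↥H) • y = y := (hfixfin g g.2).mem_toFinset.1 hg
        refine hX (c * g * c⁻¹) (Finset.mem_filter.2 ⟨Finset.mem_univ _, fun h => ?_⟩) _ ?_
        · refine (Finset.mem_filter.1 g.2).2 ?_
          have := Subgroup.Normal.conj_mem inferInstance _ h c⁻¹
          rwa [inv_inv, show c⁻¹ * (c * (g : ↥H) * c⁻¹) * c = g by group] at this
        · show (c * (g : ↥H) * c⁻¹) • (c • y) = c • y
          rw [← mul_smul, inv_mul_cancel_right, mul_smul, hgfix]
      · obtain ⟨d, hd⟩ := hΩfin.mem_toFinset.1 h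
        exact ⟨c⁻¹ * d, by
          show (c⁻¹ * d) • (∞ : OnePoint K) = y
          have hd' : d • (∞ : OnePoint K) = c • y := hd
          rw [mul_smul, hd', inv_smul_smul]⟩
    · have hO : Nat.card ↥(MulAction.orbit ↥H y) * Nat.card ↥(MulAction.stabilizer ↥H y) =
          Nat.card ↥H := by
        rw [← Nat.card_prod]
        exact Nat.card_congr (MulAction.orbitProdStabilizerEquivGroup ↥H y)
      rw [← hO, Nat.card_coe_set_eq, Set.ncard_eq_toFinset_card _ hOfin,
        Finset.card_eq_sum_ones hOfin.toFinset, Finset.sum_mul, ← Finset.sum_add_distrib,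
        Finset.sum_mul]
      refine Finset.sum_congr rfl fun x hx => ?_
      rw [one_mul, one_mul, hfixer, hstab _ _ (hOfin.mem_toFinset.1 hx)]
    · obtain ⟨d, hd⟩ := Subgroup.card_dvd_of_le
        (show Z ≤ MulAction.stabilizer ↥H y from fun g hg => hZfix g hg y)
      refine ⟨d, ?_, ?_⟩
      · obtain ⟨g, -, hg⟩ := Finset.mem_biUnion.1 hyX
        have hpos : 0 < fixer y := Finset.card_pos.2
          ⟨g, Finset.mem_filter.2 ⟨g.2, (hfixfin g g.2).mem_toFinset.1 hg⟩⟩
        have := hfixer y
        rw [hd] at this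
        by_contra hd2
        push Not at hd2
        interval_cases d <;> omega
      · rw [mul_comm d z, ← hd, ← Set.ncard_eq_toFinset_card _ hOfin, ← Nat.card_coe_set_eq,
          ← Nat.card_prod]
        exact Nat.card_congr (MulAction.orbitProdStabilizerEquivGroup ↥H y)
  have hnz : 2 ≤ n := by
    have hv : vv (algebraMap k F 1 * α) ∈ H := vv_mem_gam k α 1
    rw [hn, Nat.card_coe_set_eq]
    refine Nat.succ_le_of_lt (Set.one_lt_ncard hΩfin |>.2 ⟨∞, MulAction.mem_orbit_self _,
      (⟨_, hv⟩ : ↥H) • (∞ : OnePoint K), ⟨_, rfl⟩, fun h => ?_⟩)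
    have := (hinf _).1 h.symm
    simp [hα] at this
  -- the equation: W + n z s + 2 z = |H| + 2 n z
  set W := ∑ x ∈ X \ Ωf, fixer x with hW
  have heqW : W + n * (z * s) + 2 * z = Nat.card ↥H + 2 * (n * z) := by linarith
  rcases (X \ Ωf).eq_empty_or_nonempty with hemp | ⟨y, hy⟩
  · exfalso
    rw [hW, hemp, Finset.sum_empty] at heqW
    have h1 : n * s + 2 = n * (e * s) + 2 * n := by
      apply Nat.eq_of_mul_eq_mul_left hzpos
      rw [← hHcard] at heqW
      linarith
    have h3 : s ≤ e * s := Nat.le_mul_of_pos_left s hepos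
    have h4 := Nat.mul_le_mul_left n h3
    omega
  obtain ⟨O, hyO, hOY, hOmem, hOsum, h, hh2, hOh⟩ := horb y hy
  have hYO : O = X \ Ωf := by
    refine Finset.Subset.antisymm hOY fun y' hy' => ?_
    by_contra hy'O
    obtain ⟨O', hy'O', hO'Y, hO'mem, hO'sum, h', hh2', hO'h⟩ := horb y' hy'
    have hdisj : Disjoint O O' := by
      rw [Finset.disjoint_left]
      intro x hx hx'
      refine hy'O ((hOmem y').2 ?_)
      rw [← MulAction.orbit_eq_iff.2 ((hOmem x).1 hx), MulAction.orbit_eq_iff.2 ((hO'mem x).1 hx')]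
      exact MulAction.mem_orbit_self _
    have hsum : ∑ x ∈ O, fixer x + ∑ x ∈ O', fixer x ≤ W := by
      rw [← Finset.sum_union hdisj]
      exact Finset.sum_le_sum_of_subset (Finset.union_subset hOY hO'Y)
    have b1 := Nat.mul_le_mul_left (O.card * z) hh2
    have b2 := Nat.mul_le_mul_left (O'.card * z) hh2'
    have b3 := Nat.mul_le_mul_left (n * z) hs5
    nlinarith
  subst hYO
  rw [← hW] at hOsum
  have ho : (X \ Ωf).card + 2 * n = n * s + 2 := by
    apply Nat.eq_of_mul_eq_mul_right hzpos
    linarith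
  have hoh : (X \ Ωf).card * h = n * (e * s) := by
    apply Nat.eq_of_mul_eq_mul_right hzpos
    rw [mul_assoc, hOh, ← hHcard]; ring
  -- the affine part of the orbit
  let V : Set K := {v | (v : OnePoint K) ∈ Ω}
  let S' : AddSubgroup K := S.map ι.toAddMonoidHom
  have hS'card : Nat.card ↥S' = s :=
    (AddSubgroup.card_map_of_injective (f := ι.toAddMonoidHom) ι.injective).trans hs.symm
  have hVinv : ∀ v ∈ V, ∀ r ∈ S', v + r ∈ V := by
    rintro v ⟨c, hc⟩ _ ⟨r, hr, rfl⟩
    refine ⟨⟨uu r, hr⟩ * c, ?_⟩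
    show (⟨uu r, hr⟩ * c) • (∞ : OnePoint K) = _
    rw [mul_smul, show c • (∞ : OnePoint K) = v from hc, hsmul, smul_some_eq_ite]
    simp [toGLMap_apply, add_comm]
  let vα : ↥H := ⟨vv (algebraMap k F 1 * α), vv_mem_gam k α 1⟩
  have h0V : (0 : K) ∈ V := by
    have hvs : ¬ IsScalarElt ((vα : ↥H) : Matrix.SpecialLinearGroup (Fin 2) F) := fun h => by
      have := h.1
      simp [vα, hα] at this
    refine hUpfix vα (fun h => hvs ((hZiff vα).1 h)) ?_ _ ?_
    · show _ ^ 2 = 4
      simp [vα]; norm_num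
    · rw [hsmul, smul_some_eq_ite]; simp [toGLMap_apply, vα]
  have hVfin : V.Finite := hΩfin.preimage (OnePoint.coe_injective.injOn)
  have hΩV : Ω = insert ∞ ((OnePoint.some) '' V) := by
    ext x
    induction x using OnePoint.rec with
    | infty => exact iff_of_true (MulAction.mem_orbit_self _) (Set.mem_insert _ _)
    | coe v => simp [V]
  have hnV : n = V.ncard + 1 := by
    rw [hn, Nat.card_coe_set_eq, hΩV, Set.ncard_insert_of_notMem (by simp) (hVfin.image _),
      Set.ncard_image_of_injective _ OnePoint.coe_injective]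
  obtain ⟨r, hr⟩ := hS'card ▸ card_dvd_of_add_invariant S' V hVinv
  have hrpos : 1 ≤ r := by
    rcases Nat.eq_zero_or_pos r with h0 | h0
    · rw [h0, mul_zero] at hr
      have := (Set.ncard_pos hVfin).2 ⟨0, h0V⟩
      omega
    · exact h0
  obtain ⟨d, hd⟩ := hed
  obtain ⟨hns, hse⟩ := orbit_arith (s := s) (e := e) (d := d) (n := n) (r := r) (h := h)
    (by exact_mod_cast hs5) (by rw [← Nat.cast_mul, ← hd, Nat.cast_sub (by omega)]; rfl)
    (by exact_mod_cast hepos) (by rw [hnV, hr]; push_cast; ring) (by exact_mod_cast hrpos)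
    (by exact_mod_cast (by omega : 0 < h))
    (by
      have h1 : ((X \ Ωf).card : ℤ) + 2 * n = n * s + 2 := by exact_mod_cast ho
      have h2' : ((X \ Ωf).card : ℤ) * h = n * (e * s) := by exact_mod_cast hoh
      linear_combination h2' - (h : ℤ) * h1)
  have hns' : n = s + 1 := by exact_mod_cast hns
  have hse' : s ≤ 2 * e + 1 := by exact_mod_cast hse
  have hVS : V = S' := by
    refine (Set.eq_of_subset_of_ncard_le (fun v hv => ?_) ?_ hVfin).symm
    · have := hVinv 0 h0V v hv
      rwa [zero_add] at this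
    · rw [← Nat.card_coe_set_eq (S' : Set K), SetLike.coe_sort_coe, hS'card]
      omega
  -- the multiplier ring
  let T : Subring F :=
    { carrier := {x | ∀ r ∈ S, x * r ∈ S}
      one_mem' := fun r hr => by rwa [one_mul]
      zero_mem' := fun r _ => by rw [zero_mul]; exact zero_mem S
      mul_mem' := fun {a b} ha hb r hr => by rw [mul_assoc]; exact ha _ (hb r hr)
      add_mem' := fun {a b} ha hb r hr => by rw [add_mul]; exact add_mem (ha r hr) (hb r hr)
      neg_mem' := fun {a} ha r hr => by rw [neg_mul]; exact neg_mem (ha r hr) }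
  have h1S : (1 : F) ∈ S := by
    have := uu_mem_gam k α 1
    rwa [map_one] at this
  have hTS : ∀ x ∈ T, x ∈ S := fun x hx => by simpa using hx 1 h1S
  have hTcard : e + 1 ≤ Nat.card ↥T := by
    have hsub : insert 0 (Units.val '' (ψ.range : Set Fˣ)) ⊆ (T : Set F) := by
      rintro x (rfl | ⟨u, hu, rfl⟩)
      exacts [zero_mem T, fun r hr => hES u hu r hr]
    have := Set.ncard_le_ncard hsub (Set.toFinite _)
    rwa [Set.ncard_insert_of_notMem (by rintro ⟨u, -, hu⟩; exact u.ne_zero hu),
      Set.ncard_image_of_injective _ Units.val_injective, ← Nat.card_coe_set_eq,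
      ← Nat.card_coe_set_eq] at this
  have hTinv : ∀ x ∈ T, x ≠ 0 → x⁻¹ ∈ T := by
    intro x hx hx0
    have hfo : IsOfFinOrder (Units.mk0 x hx0) := isOfFinOrder_of_finite _
    have h1 : x ^ orderOf (Units.mk0 x hx0) = 1 := by
      have := congrArg Units.val (pow_orderOf_eq_one (Units.mk0 x hx0))
      rwa [Units.val_pow_eq_pow_val, Units.val_mk0, Units.val_one] at this
    obtain ⟨o, ho'⟩ : ∃ o, orderOf (Units.mk0 x hx0) = o + 1 :=
      ⟨_, (Nat.succ_pred_eq_of_pos hfo.orderOf_pos).symm⟩
    rw [ho', pow_succ] at h1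
    rw [← eq_inv_of_mul_eq_one_left h1]
    exact pow_mem hx o
  have hST : ∀ x ∈ S, x ∈ T := by
    intro x hx
    by_contra hxT
    let f : ↥T × ↥T → ↥S := fun tt =>
      ⟨(tt.1 : F) + (tt.2 : F) * x, add_mem (hTS _ tt.1.2) (tt.2.2 x hx)⟩
    have hinj : Function.Injective f := by
      rintro ⟨a, b⟩ ⟨a', b'⟩ hab
      have hab' : (a : F) + b * x = a' + b' * x := congrArg Subtype.val hab
      by_cases hb : (b : F) = b'
      · rw [hb, add_left_inj] at hab'
        exact Prod.ext (Subtype.ext hab') (Subtype.ext hb)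
      · exfalso
        apply hxT
        have hne : (b' : F) - b ≠ 0 := sub_ne_zero.2 (Ne.symm hb)
        have hxeq : x = ((b' : F) - b)⁻¹ * ((a : F) - a') := by
          rw [eq_inv_mul_iff_mul_eq₀ hne]; linear_combination -hab'
        rw [hxeq]
        exact mul_mem (hTinv _ (sub_mem b'.2 b.2) hne) (sub_mem a.2 a'.2)
    have h4 := Nat.card_le_card_of_injective f hinj
    rw [Nat.card_prod, ← hs] at h4
    have h5' := Nat.mul_le_mul hTcard hTcard
    nlinarith
  have hαi : α⁻¹ ∈ S := by
    have h1 : vα • (∞ : OnePoint K) ∈ Ω := MulAction.mem_orbit _ _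
    have h2' : vα • (∞ : OnePoint K) = ((ι α⁻¹ : K) : OnePoint K) := by
      rw [hsmul, smul_infty_eq_ite]
      simp [toGLMap_apply, vα, hα]
    rw [h2'] at h1
    have h3 : ι α⁻¹ ∈ S' := by
      show ι α⁻¹ ∈ (S' : Set K)
      rw [← hVS]; exact h1
    obtain ⟨r, hr, he'⟩ := h3
    rwa [← ι.injective he']
  have hαT : α ∈ T := by
    have := hTinv _ (hST _ hαi) (inv_ne_zero hα)
    rwa [inv_inv] at this
  rw [eq_top_iff]
  intro r hr
  clear hr
  obtain ⟨q, rfl⟩ := hgen r
  apply hTS
  induction q using Polynomial.induction_on' with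
  | add a b ha hb => rw [map_add]; exact add_mem ha hb
  | monomial m c =>
    rw [Polynomial.aeval_monomial]
    exact mul_mem (hST _ (uu_mem_gam k α c)) (pow_mem hαT m)

end Cfsg.Agent.RootSub.SL2Gen
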