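import Cfsg.Agent.RootSub.SL2Gen.Basic

/-!
# Infinite base field: generic continued fractions

For a generic polynomial `P` the Euclidean algorithm on `(X f, P)` only has steps of degree one, so
it is a word in the two one-parameter groups; this puts a torus element `P(α)` into the group.
-/

set_option autoImplicit false

namespace Cfsg.Agent.RootSub.SL2Gen

open Polynomial

variable {k : Type*} [Field k]

/-- The coefficient matrix of multiplication by `u P` modulo `Q`. -/
noncomputable def coeffMat (Q u P : k[X]) (m j : ℕ) : Matrix (Fin (j + 1)) (Fin (j + 1)) k :=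
  fun i l => ((u * X ^ (l : ℕ) * P) %ₘ Q).coeff (m - i)

theorem coeffMat_add_smul (Q u P D : k[X]) (m j : ℕ) (c : k) :
    coeffMat Q u (P + C c * D) m j = coeffMat Q u P m j + c • coeffMat Q u D m j := by
  ext i l
  simp only [coeffMat, Matrix.add_apply, Matrix.smul_apply, smul_eq_mul]
  rw [mul_add, add_modByMonic, coeff_add,
    show u * X ^ (l : ℕ) * (C c * D) = C c * (u * X ^ (l : ℕ) * D) by ring, ← smul_eq_C_mul,
    smul_modByMonic, coeff_smul, smul_eq_mul]

/-- `P` passes all degree tests. -/
def IsGood (Q P : k[X]) (m : ℕ) : Prop :=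
  (∀ j ≤ m, (coeffMat Q 1 P m j).det ≠ 0) ∧ ∀ j < m, (coeffMat Q X P m j).det ≠ 0

theorem exists_coeff_ne_zero {Q u P B : k[X]} {m j : ℕ} (h : (coeffMat Q u P m j).det ≠ 0)
    (hB : B ≠ 0) (hBj : B.natDegree ≤ j) :
    ∃ l, m - j ≤ l ∧ ((u * B * P) %ₘ Q).coeff l ≠ 0 := by
  by_contra hcon
  push Not at hcon
  apply hB
  have hsum : B = ∑ l : Fin (j + 1), C (B.coeff l) * X ^ (l : ℕ) := by
    conv_lhs => rw [as_sum_range_C_mul_X_pow' B (show B.natDegree < j + 1 by omega)]
    exact (Fin.sum_univ_eq_sum_range (fun l => C (B.coeff l) * X ^ l) (j + 1)).symm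
  have hz : (coeffMat Q u P m j).mulVec (fun l => B.coeff l) = 0 := by
    funext i
    simp only [Pi.zero_apply, Matrix.mulVec, dotProduct]
    have hi := i.2
    rw [← hcon (m - i) (by omega)]
    conv_rhs => rw [hsum, Finset.mul_sum, Finset.sum_mul]
    rw [← modByMonicHom_apply Q, map_sum, finsetSum_coeff]
    refine Finset.sum_congr rfl fun l _ => ?_
    rw [modByMonicHom_apply, show u * (C (B.coeff l) * X ^ (l : ℕ)) * P =
      C (B.coeff l) * (u * X ^ (l : ℕ) * P) by ring, ← smul_eq_C_mul, smul_modByMonic, coeff_smul,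
      smul_eq_mul, mul_comm]
    rfl
  have := Matrix.eq_zero_of_mulVec_eq_zero h hz
  rw [hsum]
  exact Finset.sum_eq_zero fun l _ => by rw [show B.coeff l = 0 from congrFun this l]; simp

theorem finite_bad [Infinite k] {n : ℕ} (A B : Matrix (Fin n) (Fin n) k)
    (h : A.det ≠ 0 ∨ B.det ≠ 0) : {c : k | (A + c • B).det = 0}.Finite := by
  classical
  set q : k[X] := (A.map C + (X : k[X]) • B.map C).det with hq
  have hev : ∀ c, q.eval c = (A + c • B).det := by
    intro c
    rw [hq, ← coe_evalRingHom, RingHom.map_det]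
    congr 1
    ext i j
    simp
    ring
  have hqne : q ≠ 0 := by
    intro h0
    set q2 : k[X] := ((X : k[X]) • A.map C + B.map C).det with hq2
    have hev2 : ∀ c, q2.eval c = (c • A + B).det := by
      intro c
      rw [hq2, ← coe_evalRingHom, RingHom.map_det]
      congr 1
      ext i j
      simp
      ring
    have hz : q2 = 0 := by
      refine eq_zero_of_infinite_isRoot q2 ((Set.finite_singleton (0 : k)).infinite_compl.mono ?_)
      intro c hc
      show q2.eval c = 0
      have hAB : c • A + B = c • (A + c⁻¹ • B) := by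
        rw [smul_add, smul_smul, mul_inv_cancel₀ (by simpa using hc), one_smul]
      rw [hev2, hAB, Matrix.det_smul, ← hev, h0]
      simp
    rcases h with h | h
    · have := hev 0
      rw [h0] at this
      simp at this
      exact h this.symm
    · have := hev2 0
      rw [hz] at this
      simp at this
      exact h this.symm
  refine (q.roots.toFinset.finite_toSet).subset fun c hc => ?_
  simp only [Finset.mem_coe, Multiset.mem_toFinset, mem_roots hqne, IsRoot, hev]
  exact hc

variable [Infinite k] {f : k[X]} (hf : f.Monic) {m : ℕ} (hm : f.natDegree = m)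

include hf hm in
theorem natDegree_Q : (X * f).natDegree = m + 1 := by
  rw [natDegree_X_mul hf.ne_zero, hm]

include hf hm in
theorem witness_det {u : k[X]} {e j : ℕ} (he : e + j ≤ m)
    (hu : ∀ l : ℕ, u * X ^ l * X ^ e = X ^ (l + (m - j))) :
    (coeffMat (X * f) u (X ^ e) m j).det ≠ 0 := by
  have hM : coeffMat (X * f) u (X ^ e) m j =
      Matrix.of fun i l => if (l : Fin (j + 1)) = Fin.rev i then (1 : k) else 0 := by
    ext i l
    simp only [coeffMat, Matrix.of_apply]
    have hl := l.2
    have hi := i.2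
    rw [hu, (modByMonic_eq_self_iff (monic_X.mul hf)).2, coeff_X_pow]
    · have hiff : (m - (i : ℕ) = (l : ℕ) + (m - j)) ↔ l = Fin.rev i := by
        rw [Fin.ext_iff, Fin.val_rev]; omega
      simp only [hiff]
    · refine degree_lt_degree ?_
      rw [natDegree_X_pow, natDegree_Q hf hm]
      omega
  have h2 : coeffMat (X * f) u (X ^ e) m j * coeffMat (X * f) u (X ^ e) m j = 1 := by
    rw [hM]
    ext i l
    simp only [Matrix.mul_apply, Matrix.of_apply, Matrix.one_apply]
    rw [Finset.sum_eq_single (Fin.rev i)]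
    · simp [eq_comm]
    · intro x _ hx
      simp [hx]
    · simp
  intro h0
  have := congrArg Matrix.det h2
  simp [h0] at this

include hf hm in
theorem exists_good : ∃ P : k[X], P.coeff 0 = 1 ∧ P.natDegree ≤ m ∧ IsGood (X * f) P m := by
  have hw1 : ∀ j ≤ m, (coeffMat (X * f) 1 (X ^ (m - j)) m j).det ≠ 0 := fun j hj =>
    witness_det hf hm (by omega) fun l => by rw [one_mul, pow_add]
  have hw2 : ∀ j < m, (coeffMat (X * f) X (X ^ (m - j - 1)) m j).det ≠ 0 := fun j hj =>
    witness_det hf hm (by omega) fun l => by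
      rw [← pow_succ', ← pow_add]; congr 1; omega
  have step : ∀ t ≤ m, ∃ P : k[X], P.coeff 0 = 1 ∧ P.natDegree ≤ m ∧
      (∀ j ≤ m, m ≤ j + t → (coeffMat (X * f) 1 P m j).det ≠ 0) ∧
      (∀ j < m, m ≤ j + t + 1 → (coeffMat (X * f) X P m j).det ≠ 0) := by
    intro t
    induction t with
    | zero =>
      intro _
      refine ⟨1, by simp, by simp, fun j hj hj' => ?_, fun j hj hj' => ?_⟩
      · have := hw1 j hj
        rwa [show m - j = 0 by omega, pow_zero] at this
      · have := hw2 j hj
        rwa [show m - j - 1 = 0 by omega, pow_zero] at this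
    | succ t ih =>
      intro ht
      obtain ⟨P, hP0, hPm, hP1, hP2⟩ := ih (by omega)
      have hfin1 : ∀ j ∈ {j | j ≤ m ∧ m ≤ j + (t + 1)},
          {c : k | (coeffMat (X * f) 1 P m j + c • coeffMat (X * f) 1 (X ^ (t + 1)) m j).det = 0}.Finite := by
        rintro j ⟨hj, hj'⟩
        refine finite_bad _ _ ?_
        by_cases h : m ≤ j + t
        · exact Or.inl (hP1 j hj h)
        · right
          have := hw1 j hj
          rwa [show m - j = t + 1 by omega] at this
      have hfin2 : ∀ j ∈ {j | j < m ∧ m ≤ j + (t + 1) + 1},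
          {c : k | (coeffMat (X * f) X P m j + c • coeffMat (X * f) X (X ^ (t + 1)) m j).det = 0}.Finite := by
        rintro j ⟨hj, hj'⟩
        refine finite_bad _ _ ?_
        by_cases h : m ≤ j + t + 1
        · exact Or.inl (hP2 j hj h)
        · right
          have := hw2 j hj
          rwa [show m - j - 1 = t + 1 by omega] at this
      have hf1 : {j | j ≤ m ∧ m ≤ j + (t + 1)}.Finite :=
        (Set.finite_Iic m).subset fun j hj => hj.1
      have hf2 : {j | j < m ∧ m ≤ j + (t + 1) + 1}.Finite :=
        (Set.finite_Iic m).subset fun j hj => hj.1.le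
      obtain ⟨c, hc⟩ := ((hf1.biUnion hfin1).union (hf2.biUnion hfin2)).infinite_compl.nonempty
      simp only [Set.mem_compl_iff, Set.mem_union, Set.mem_iUnion, not_or, not_exists] at hc
      refine ⟨P + C c * X ^ (t + 1), by simp [hP0], ?_, fun j hj hj' => ?_, fun j hj hj' => ?_⟩
      · exact natDegree_add_le_of_degree_le hPm ((natDegree_C_mul_X_pow_le _ _).trans ht)
      · rw [coeffMat_add_smul]; exact hc.1 j ⟨hj, hj'⟩
      · rw [coeffMat_add_smul]; exact hc.2 j ⟨hj, hj'⟩
  obtain ⟨P, h0, hd, h1, h2⟩ := step m le_rfl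
  exact ⟨P, h0, hd, fun j hj => h1 j hj (by omega), fun j hj => h2 j hj (by omega)⟩

include hf hm in
theorem finite_bad_line {P D : k[X]} (hP : IsGood (X * f) P m) :
    {c : k | ¬ IsGood (X * f) (P + C c * D) m}.Finite := by
  refine (((Set.finite_Iic m).biUnion (t := fun j => {c : k |
      (coeffMat (X * f) 1 P m j + c • coeffMat (X * f) 1 D m j).det = 0}) fun j hj =>
      finite_bad _ _ (Or.inl (hP.1 j hj))).union
    ((Set.finite_Iio m).biUnion (t := fun j => {c : k |
      (coeffMat (X * f) X P m j + c • coeffMat (X * f) X D m j).det = 0}) fun j hj =>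
      finite_bad _ _ (Or.inl (hP.2 j hj)))).subset ?_
  intro c hc
  by_contra hn
  simp only [Set.mem_union, Set.mem_iUnion, not_or, not_exists] at hn
  exact hc ⟨fun j hj => by rw [coeffMat_add_smul]; exact hn.1 j hj,
    fun j hj => by rw [coeffMat_add_smul]; exact hn.2 j hj⟩

variable {R : Type*} [CommRing R] [Algebra k R] {α : R}

include hf hm in
/-- The Euclidean word of a good polynomial. -/
theorem exists_torus (hroot : aeval α f = 0) {P : k[X]} (hP0 : P.coeff 0 = 1)
    (hPm : P.natDegree ≤ m) (hP : IsGood (X * f) P m) :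
    ∃ g ∈ gam k α, g 1 0 = 0 ∧ g 0 0 = aeval α P := by
  have hQm : (X * f).Monic := monic_X.mul hf
  have hQd := natDegree_Q hf hm
  have hred : ∀ p p' : k[X], p.natDegree ≤ m → (X * f) ∣ p - p' → p' %ₘ (X * f) = p := by
    intro p p' hp hd
    have h0 : (p - p') %ₘ (X * f) = 0 := (modByMonic_eq_zero_iff_dvd hQm).2 hd
    rw [sub_modByMonic, sub_eq_zero] at h0
    rw [← h0, (modByMonic_eq_self_iff hQm).2 (degree_lt_degree (by omega))]
  have h01 : ∀ j ≤ m, ∃ g ∈ gam k α, ∃ p q B E : k[X],
      ((g : Matrix.SpecialLinearGroup (Fin 2) R) 0 0 * aeval α P = aeval α p ∧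
        g 1 0 * aeval α P = aeval α q) ∧ p.coeff 0 = 1 ∧ q.coeff 0 = 0 ∧
      p.natDegree ≤ m - j ∧ p.coeff (m - j) ≠ 0 ∧ q.natDegree ≤ m + 1 - j ∧
      q.coeff (m + 1 - j) ≠ 0 ∧ B.natDegree ≤ j ∧ B.coeff j ≠ 0 ∧
      (∀ l, j ≤ l → E.coeff l = 0) ∧ (X * f) ∣ p - B * P ∧ (X * f) ∣ q - X * E * P := by
    intro j
    induction j with
    | zero =>
      intro _
      refine ⟨1, one_mem _, P, X * f, 1, 0, ⟨by simp, by simp [hroot]⟩, hP0, by simp, hPm, ?_,
        hQd.le, ?_, by simp, by simp, fun l _ => by simp, by simp, by simp⟩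
      · obtain ⟨l, hl, hl'⟩ := exists_coeff_ne_zero (hP.1 0 (Nat.zero_le m)) one_ne_zero (by simp)
        rw [one_mul, one_mul, (modByMonic_eq_self_iff hQm).2 (degree_lt_degree (by omega))] at hl'
        have := le_natDegree_of_ne_zero hl'
        rwa [show m - 0 = l by omega]
      · have h1 : (X * f).coeff (m + 1) = 1 := by rw [← hQd]; exact hQm.coeff_natDegree
        simp only [Nat.sub_zero, h1]
        exact one_ne_zero
    | succ j ih =>
      intro hj
      obtain ⟨g, hg, p, q, B, E, ⟨he0, he1⟩, hp0, hq0, hpd, hpc, hqd, hqc, hBd, hBc, hEc, hdp,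
        hdq⟩ := ih (by omega)
      set b := -(q.coeff (m + 1 - j) / p.coeff (m - j)) with hb
      have hbne : b ≠ 0 := neg_ne_zero.2 (div_ne_zero hqc hpc)
      set q' := q + C b * (X * p) with hq'
      set E' := E + C b * B with hE'
      have hq'd : q'.natDegree ≤ m - j := by
        rw [natDegree_le_iff_coeff_eq_zero]
        intro N hN
        obtain ⟨N, rfl⟩ : ∃ e, N = e + 1 := ⟨N - 1, by omega⟩
        rw [hq', coeff_add, coeff_C_mul, coeff_X_mul]
        rcases eq_or_lt_of_le (show m - j ≤ N by omega) with h | h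
        · rw [← h, show m - j + 1 = m + 1 - j by omega, hb, neg_mul, div_mul_cancel₀ _ hpc,
            add_neg_cancel]
        · rw [coeff_eq_zero_of_natDegree_lt (show q.natDegree < N + 1 by omega),
            coeff_eq_zero_of_natDegree_lt (show p.natDegree < N by omega)]
          simp
      have hE'c : E'.coeff j ≠ 0 := by
        rw [hE', coeff_add, hEc j le_rfl, coeff_C_mul, zero_add]
        exact mul_ne_zero hbne hBc
      have hE'd : ∀ l, j + 1 ≤ l → E'.coeff l = 0 := by
        intro l hl
        rw [hE', coeff_add, hEc l (by omega), coeff_C_mul,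
          coeff_eq_zero_of_natDegree_lt (show B.natDegree < l by omega), mul_zero, add_zero]
      have hdq' : (X * f) ∣ q' - X * E' * P := by
        have : q' - X * E' * P = (q - X * E * P) + C b * X * (p - B * P) := by
          rw [hq', hE']; ring
        rw [this]
        exact dvd_add hdq (hdp.mul_left _)
      have hq'c : q'.coeff (m - j) ≠ 0 := by
        have hne : E' ≠ 0 := fun h => hE'c (by simp [h])
        have hdeg : E'.natDegree ≤ j :=
          natDegree_le_iff_coeff_eq_zero.2 fun l hl => hE'd l hl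
        obtain ⟨l, hl, hl'⟩ := exists_coeff_ne_zero (hP.2 j (by omega)) hne hdeg
        rw [hred q' _ (by omega) hdq'] at hl'
        have := le_natDegree_of_ne_zero hl'
        rwa [show m - j = l by omega]
      set a := -(p.coeff (m - j) / q'.coeff (m - j)) with ha
      set p' := p + C a * q' with hp'
      set B' := B + C a * (X * E') with hB'
      have hp'd : p'.natDegree ≤ m - (j + 1) := by
        rw [natDegree_le_iff_coeff_eq_zero]
        intro N hN
        rw [hp', coeff_add, coeff_C_mul]
        rcases eq_or_lt_of_le (show m - j ≤ N by omega) with h | h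
        · rw [← h, ha, neg_mul, div_mul_cancel₀ _ hq'c, add_neg_cancel]
        · rw [coeff_eq_zero_of_natDegree_lt (show q'.natDegree < N by omega),
            coeff_eq_zero_of_natDegree_lt (show p.natDegree < N by omega)]
          simp
      have hB'c : B'.coeff (j + 1) ≠ 0 := by
        rw [hB', coeff_add, coeff_eq_zero_of_natDegree_lt (show B.natDegree < j + 1 by omega),
          coeff_C_mul, coeff_X_mul, zero_add]
        exact mul_ne_zero (neg_ne_zero.2 (div_ne_zero hpc hq'c)) hE'c
      have hB'd : B'.natDegree ≤ j + 1 := by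
        rw [natDegree_le_iff_coeff_eq_zero]
        intro l hl
        obtain ⟨l, rfl⟩ : ∃ e, l = e + 1 := ⟨l - 1, by omega⟩
        rw [hB', coeff_add, coeff_C_mul, coeff_X_mul, hE'd l (by omega),
          coeff_eq_zero_of_natDegree_lt (show B.natDegree < l + 1 by omega)]
        simp
      have hdp' : (X * f) ∣ p' - B' * P := by
        have : p' - B' * P = (p - B * P) + C a * (q' - X * E' * P) := by
          rw [hp', hB']; ring
        rw [this]
        exact dvd_add hdp (hdq'.mul_left _)
      have hp'c : p'.coeff (m - (j + 1)) ≠ 0 := by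
        have hne : B' ≠ 0 := fun h => hB'c (by simp [h])
        obtain ⟨l, hl, hl'⟩ := exists_coeff_ne_zero (hP.1 (j + 1) hj) hne hB'd
        rw [one_mul, hred p' _ (by omega) hdp'] at hl'
        have := le_natDegree_of_ne_zero hl'
        rwa [show m - (j + 1) = l by omega]
      refine ⟨uu (algebraMap k R a) * vv (algebraMap k R b * α) * g,
        mul_mem (mul_mem (uu_mem_gam k α a) (vv_mem_gam k α b)) hg, p', q', B', E', ⟨?_, ?_⟩, ?_, ?_,
        hp'd, hp'c, ?_, ?_, hB'd, hB'c, hE'd, hdp', hdq'⟩
      · have e00 : ∀ (r t : R), (uu r * vv t * g : Matrix.SpecialLinearGroup (Fin 2) R) 0 0 =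
            (1 + r * t) * g 0 0 + r * g 1 0 := fun r t => by
          simp [Matrix.mul_apply, Fin.sum_univ_two]
        rw [e00, hp', hq']
        simp only [map_add, map_mul, aeval_C, aeval_X, ← he0, ← he1]
        ring
      · have e10 : ∀ (r t : R), (uu r * vv t * g : Matrix.SpecialLinearGroup (Fin 2) R) 1 0 =
            t * g 0 0 + g 1 0 := fun r t => by
          simp [Matrix.mul_apply, Fin.sum_univ_two]
        rw [e10, hq']
        simp only [map_add, map_mul, aeval_C, aeval_X, ← he0, ← he1]
        ring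
      · simp [hp', hq', hp0, hq0]
      · simp [hq', hq0]
      · omega
      · rwa [show m + 1 - (j + 1) = m - j by omega]
  obtain ⟨g, hg, p, q, B, E, ⟨he0, he1⟩, hp0, hq0, hpd, -, hqd, -⟩ := h01 m le_rfl
  have hp : p = 1 := by
    rw [eq_C_of_natDegree_le_zero (show p.natDegree ≤ 0 by omega), hp0, C_1]
  have hq : q = C (q.coeff 1) * X := by
    have := eq_X_add_C_of_natDegree_le_one (show q.natDegree ≤ 1 by omega)
    rwa [hq0, C_0, add_zero] at this
  set h := vv (algebraMap k R (-(q.coeff 1)) * α) * g with hh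
  have e0 : h 0 0 * aeval α P = 1 := by
    simp [hh, Matrix.mul_apply, Fin.sum_univ_two]
    rw [he0, hp]; simp
  have e1 : h 1 0 * aeval α P = 0 := by
    rw [hq] at he1
    simp [hh, Matrix.mul_apply, Fin.sum_univ_two, hp] at he0 he1 ⊢
    linear_combination (-(algebraMap k R (q.coeff 1) * α)) * he0 + he1
  have h10 : h 1 0 = 0 := by
    calc h 1 0 = h 1 0 * (h 0 0 * aeval α P) := by rw [e0, mul_one]
      _ = h 0 0 * (h 1 0 * aeval α P) := by ring
      _ = 0 := by rw [e1, mul_zero]
  have hd := det_eq h
  rw [h10, mul_zero, sub_zero] at hd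
  refine ⟨h⁻¹, inv_mem (mul_mem (vv_mem_gam k α _) hg), ?_, ?_⟩
  · simp [Matrix.SpecialLinearGroup.coe_inv, Matrix.adjugate_fin_two, h10]
  · simp [Matrix.SpecialLinearGroup.coe_inv, Matrix.adjugate_fin_two]
    linear_combination (-(h 1 1)) * e0 + (aeval α P) * hd

include hf hm in
theorem upperSet_eq_top_of_infinite (hroot : aeval α f = 0) (hα : IsUnit α)
    (h2 : (2 : k) ≠ 0) (hgen : ∀ r : R, ∃ p : k[X], aeval α p = r) :
    upperSet (gam k α) = ⊤ := by
  obtain ⟨P, hP0, hPm, hP⟩ := exists_good hf hm
  set S := upperSet (gam k α) with hS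
  have hsq : ∀ P' : k[X], P'.coeff 0 = 1 → P'.natDegree ≤ m → IsGood (X * f) P' m →
      ∀ c : k, aeval α P' * aeval α P' * algebraMap k R c ∈ S := by
    intro P' h0 hd hg c
    obtain ⟨g, hgm, h10, h00⟩ := exists_torus hf hm hroot h0 hd hg
    rw [← h00]
    exact sq_mul_mem_upperSet hgm h10 (uu_mem_gam k α c)
  have hD : ∀ D : k[X], D.coeff 0 = 0 → D.natDegree ≤ m → ∀ c : k,
      aeval α D * aeval α D * algebraMap k R c ∈ S := by
    intro D h0 hd c
    set Bad := {e : k | ¬ IsGood (X * f) (P + C e * D) m} with hBad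
    have hfin : Bad.Finite := finite_bad_line hf hm hP
    obtain ⟨e, he⟩ := ((hfin.union (hfin.image (fun x => x - 1))).union
      (hfin.image (fun x => x - 2))).infinite_compl.nonempty
    simp only [Set.mem_compl_iff, Set.mem_union, Set.mem_image, not_or, not_exists, not_and] at he
    have hgood : ∀ i : k, i ∉ Bad → aeval α (P + C i * D) * aeval α (P + C i * D) *
        algebraMap k R (c / 2) ∈ S := by
      intro i hi
      refine hsq _ (by simp [hP0, h0]) ?_ (by simpa [hBad] using hi) _
      exact natDegree_add_le_of_degree_le hPm ((natDegree_C_mul_le _ _).trans hd)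
    have t0 := hgood e he.1.1
    have t1 := hgood (e + 1) fun h => he.1.2 _ h (by ring)
    have t2 := hgood (e + 2) fun h => he.2 _ h (by ring)
    have key := sub_mem (add_mem t0 t2) (add_mem t1 t1)
    convert key using 1
    have hc2 : algebraMap k R c = 2 * algebraMap k R (c / 2) := by
      rw [← map_ofNat (algebraMap k R) 2, ← map_mul, mul_div_cancel₀ c h2]
    simp only [map_add, map_mul, aeval_C]
    rw [hc2]
    simp only [map_ofNat, map_one]
    ring
  have hall : ∀ r : R, ∀ c : k, r * r * algebraMap k R c ∈ S := by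
    intro r c
    obtain ⟨a, ha⟩ := hα.exists_left_inv
    obtain ⟨p, hp⟩ := hgen (a * r)
    have hr : aeval α (X * (p %ₘ f)) = r := by
      rw [map_mul, aeval_X]
      have : aeval α (p %ₘ f) = aeval α p := by
        conv_rhs => rw [← modByMonic_add_div p f, map_add, map_mul, hroot, zero_mul, add_zero]
      rw [this, hp, ← mul_assoc, mul_comm α a, ha, one_mul]
    rw [← hr]
    refine hD _ (by simp) ?_ c
    by_cases h0 : p %ₘ f = 0
    · simp [h0]
    · rw [natDegree_X_mul h0]
      have hf1 : f ≠ 1 := fun h1 => h0 (by rw [h1, modByMonic_one])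
      have := natDegree_modByMonic_lt p hf hf1
      omega
  rw [eq_top_iff]
  intro r _
  have h4 : (algebraMap k R (1 / 4 : k)) * 4 = 1 := by
    rw [← map_ofNat (algebraMap k R) 4, ← map_mul, one_div, inv_mul_cancel₀, map_one]
    intro h
    exact h2 (mul_self_eq_zero.1 (by rw [← h]; ring))
  have key := sub_mem (hall (r + 1) (1 / 4)) (hall (r - 1) (1 / 4))
  convert key using 1
  linear_combination (-r) * h4

end Cfsg.Agent.RootSub.SL2Gen
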