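import Cfsg.Agent.RootSub.SL2Gen.FiniteField
import Cfsg.Agent.RootSub.SL2Gen.Congruence
import Cfsg.Agent.RootSub.SL2Gen.Infinite

/-!
# `⟨uu k, vv (k α)⟩` contains all upper unitriangular elements over `k[α]`

`R = k[α]` is a finite dimensional algebra over a field with `2 ≠ 0`, different from `𝔽₃`, and `α` is a
unit. For finite `k` this is an induction along a minimal ideal.
-/

set_option autoImplicit false
set_option linter.unusedSimpArgs false
set_option linter.style.haveILetI false

namespace Cfsg.Agent.RootSub.SL2Gen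

open Polynomial

universe u

section Step

variable {k : Type*} [Field k] {R : Type u} [CommRing R] [Algebra k R]

local notation "SLR" => Matrix.SpecialLinearGroup (Fin 2) R

/-- Modulo an ideal with full upper set every unipotent element lifts to the group. -/
theorem exists_lift {I : Ideal R} {α : R} (hα : IsUnit α)
    (hfull : upperSet (gam k (Ideal.Quotient.mk I α)) = ⊤) :
    (∀ r : R, ∃ g ∈ gam k α, Matrix.SpecialLinearGroup.map (Ideal.Quotient.mk I) g =
        uu (Ideal.Quotient.mk I r)) ∧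
    (∀ r : R, ∃ g ∈ gam k α, Matrix.SpecialLinearGroup.map (Ideal.Quotient.mk I) g =
        vv (Ideal.Quotient.mk I r)) := by
  have hmap : (gam k α).map (Matrix.SpecialLinearGroup.map (Ideal.Quotient.mk I)) =
      gam k (Ideal.Quotient.mk I α) := by
    exact map_gam k (Ideal.Quotient.mkₐ k I) α
  constructor <;> intro r
  · have : uu (Ideal.Quotient.mk I r) ∈ gam k (Ideal.Quotient.mk I α) := by
      rw [← mem_upperSet, hfull]; exact AddSubgroup.mem_top _
    rw [← hmap] at this
    exact Subgroup.mem_map.1 this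
  · have : vv (Ideal.Quotient.mk I r) ∈ gam k (Ideal.Quotient.mk I α) :=
      vv_mem_of_upperSet (hα.map _) hfull _
    rw [← hmap] at this
    exact Subgroup.mem_map.1 this

theorem map_conj_vv {S : Type*} [CommRing S] (f : R →+* S) {g : SLR} {r : S} {α : R}
    (hg : Matrix.SpecialLinearGroup.map f g = vv r) :
    Matrix.SpecialLinearGroup.map f (g * vv α * g⁻¹ * (vv α)⁻¹) = 1 := by
  simp only [map_mul, map_inv, map_vv, map_neg, hg, vv_inv, vv_add]
  rw [show r + f α + -r + -f α = (0 : S) by ring, vv_zero]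

/-- If the congruence kernel is scalar and the lower elements lift, every upper parameter occurs. -/
theorem upperSet_eq_top_of_scalar_kernel {α : R} (hα : IsUnit α) (h2 : IsUnit (2 : R))
    {I : Ideal R}
    (hlv : ∀ r : R, ∃ g ∈ gam k α, Matrix.SpecialLinearGroup.map (Ideal.Quotient.mk I) g =
        vv (Ideal.Quotient.mk I r))
    (hN : ∀ z ∈ gam k α, Matrix.SpecialLinearGroup.map (Ideal.Quotient.mk I) z = 1 →
        z 1 0 = 0 ∧ z 0 1 = 0 ∧ z 1 1 = z 0 0)
    (hgen : ∀ r : R, ∃ p : k[X], aeval α p = r) : upperSet (gam k α) = ⊤ := by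
  obtain ⟨half, hhalf⟩ : ∃ half : R, 2 * half = 1 := h2.exists_right_inv
  have hcan : ∀ x : R, 2 * x = 0 → x = 0 := fun x hx => h2.mul_right_eq_zero.1 hx
  set Γ := gam k α
  set π := Ideal.Quotient.mk I
  have hvα : vv α ∈ Γ := by simpa using vv_mem_gam k α 1
  have hu1 : uu 1 ∈ Γ := by simpa using uu_mem_gam k α 1
  -- elements over lower unipotent elements
  have hV : ∀ g ∈ Γ, ∀ r, Matrix.SpecialLinearGroup.map π g = vv r →
      g 0 1 = 0 ∧ g 1 1 = g 0 0 ∧ g 1 1 * g 1 1 = 1 := by
    intro g hg r hr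
    set z := g * vv α * g⁻¹ * (vv α)⁻¹ with hz
    obtain ⟨z10, z01, z11⟩ := hN z (mul_mem (mul_mem (mul_mem hg hvα) (inv_mem hg)) (inv_mem hvα))
      (map_conj_vv π hr)
    have hzg : g * vv α * g⁻¹ = z * vv α := by rw [hz]; group
    have h00 := congrArg (fun q : SLR => q 0 0) hzg
    have h01 := congrArg (fun q : SLR => q 0 1) hzg
    have h10 := congrArg (fun q : SLR => q 1 0) hzg
    have h11 := congrArg (fun q : SLR => q 1 1) hzg
    simp only [conj_vv] at h00 h01 h10 h11
    simp only [mul_entry, coe_vv, z10, z01, z11] at h00 h01 h10 h11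
    simp at h00 h01 h10 h11
    have hz1 : z 0 0 = 1 := by
      refine sub_eq_zero.1 (hcan _ ?_)
      linear_combination -h00 - h11
    rw [hz1] at h00 h10
    obtain ⟨a, rfl⟩ := hα
    have hd2 : g 1 1 * g 1 1 = 1 := a.isUnit.mul_left_cancel (by linear_combination h10)
    have hbd : g 0 1 * g 1 1 = 0 := a.isUnit.mul_right_eq_zero.1 (by linear_combination h00)
    have hd := det_eq g
    have hb : g 0 1 = 0 := by linear_combination g 1 1 * hbd - g 0 1 * hd2
    refine ⟨hb, ?_, hd2⟩
    rw [hb, zero_mul, sub_zero] at hd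
    linear_combination g 0 0 * hd2 - g 1 1 * hd
  have hTsurj : ∀ r : R, ∃ x, vv x ∈ Γ ∧ x - r ∈ I := by
    intro r
    obtain ⟨g, hg, hgr⟩ := hlv (half * r)
    obtain ⟨hb, hd, hd2⟩ := hV g hg _ hgr
    refine ⟨2 * g 0 0 * g 1 0, ?_, ?_⟩
    · convert mul_mem hg hg using 1
      rw [hd] at hd2
      apply sl_ext <;> simp [Matrix.mul_apply, Fin.sum_univ_two, hb, hd, hd2]
      ring
    · rw [← Ideal.Quotient.eq]
      have e00 := congrArg (fun q : Matrix.SpecialLinearGroup (Fin 2) (R ⧸ I) => q 0 0) hgr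
      have e10 := congrArg (fun q : Matrix.SpecialLinearGroup (Fin 2) (R ⧸ I) => q 1 0) hgr
      simp only [map_entry, coe_vv] at e00 e10
      simp at e00 e10
      rw [map_mul, map_mul, e00, e10, mul_one, ← map_mul, ← map_mul, ← mul_assoc, hhalf, one_mul]
  -- Weyl elements
  have hW : ∀ s, uu s ∈ Γ → ∀ t, π s * π t = -1 → vv t ∈ Γ → s * t = -1 := by
    intro s hs t hst ht
    set g := uu s * vv t * uu s with hg
    have hgΓ : g ∈ Γ := mul_mem (mul_mem hs ht) hs
    have g00 : g 0 0 = 1 + s * t := by simp [hg, Matrix.mul_apply, Fin.sum_univ_two]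
    have g10 : g 1 0 = t := by simp [hg, Matrix.mul_apply, Fin.sum_univ_two]
    have ha0 : π (g 0 0) = 0 := by rw [g00, map_add, map_mul, map_one, hst, add_neg_cancel]
    have hπ : Matrix.SpecialLinearGroup.map π (g * uu 1 * g⁻¹) = vv (-(π t * π t)) := by
      apply sl_ext <;> simp only [map_entry, conj_uu] <;> simp [ha0, g10]
    obtain ⟨h01, h11, -⟩ := hV _ (mul_mem (mul_mem hgΓ hu1) (inv_mem hgΓ)) _ hπ
    simp only [conj_uu] at h01 h11
    simp at h01 h11
    rw [g00, g10] at h11
    rw [g00] at h01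
    have hac : (1 + s * t) * t = 0 := hcan _ (by linear_combination h11)
    linear_combination h01 - s * hac
  have hv1 : vv (-1) ∈ Γ := by
    obtain ⟨t, ht, htI⟩ := hTsurj (-1)
    have := hW 1 hu1 t (by rw [map_one, one_mul, Ideal.Quotient.eq.2 htI, map_neg, map_one]) ht
    rwa [← this, one_mul]
  set w : SLR := uu 1 * vv (-1) * uu 1 with hwdef
  have hw : w ∈ Γ := mul_mem (mul_mem hu1 hv1) hu1
  have w00 : w 0 0 = 0 := by simp [hwdef, Matrix.mul_apply, Fin.sum_univ_two]
  have w01 : w 0 1 = 1 := by simp [hwdef, Matrix.mul_apply, Fin.sum_univ_two]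
  have w10 : w 1 0 = -1 := by simp [hwdef, Matrix.mul_apply, Fin.sum_univ_two]
  have w11 : w 1 1 = 0 := by simp [hwdef, Matrix.mul_apply, Fin.sum_univ_two]
  have huαc : ∀ c : k, uu (algebraMap k R c * α) ∈ Γ := by
    intro c
    convert mul_mem (mul_mem hw (vv_mem_gam k α (-c))) (inv_mem hw) using 1
    apply sl_ext <;> simp only [conj_vv] <;> simp [w01, w11]
  -- squares of diagonal elements
  have hdiag : ∀ s t : R, uu s ∈ Γ → vv t ∈ Γ → s * t = -1 → ∀ r ∈ upperSet Γ,
      s * s * r ∈ upperSet Γ := by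
    intro s t hs ht hst r hr
    set g := uu s * vv t * uu s * w⁻¹ with hg
    have hgΓ : g ∈ Γ := mul_mem (mul_mem (mul_mem hs ht) hs) (inv_mem hw)
    have g00 : g 0 0 = s := by
      simp only [hg, mul_entry, inv_entry_00, inv_entry_10, w00, w01, w10, w11, coe_uu, coe_vv]
      simp
      linear_combination s * hst
    have g10 : g 1 0 = 0 := by
      simp only [hg, mul_entry, inv_entry_00, inv_entry_10, w00, w01, w10, w11, coe_uu, coe_vv]
      simp
      linear_combination hst
    have := sq_mul_mem_upperSet hgΓ g10 hr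
    rwa [g00] at this
  have hα2 : ∀ r ∈ upperSet Γ, α * α * r ∈ upperSet Γ := by
    obtain ⟨a, ha⟩ := hα
    obtain ⟨t, ht, htI⟩ := hTsurj (-((a⁻¹ : Rˣ) : R))
    have hα1 : uu α ∈ Γ := by simpa using huαc 1
    refine hdiag α t hα1 ht (hW α hα1 t ?_ ht)
    rw [Ideal.Quotient.eq.2 htI, map_neg, mul_neg, ← map_mul, ← ha, a.mul_inv, map_one]
  have hmain : ∀ p : k[X], aeval α p ∈ upperSet Γ ∧ α * aeval α p ∈ upperSet Γ := by
    intro p
    induction p using Polynomial.induction_on' with
    | add a b ha hb => rw [map_add, mul_add]; exact ⟨add_mem ha.1 hb.1, add_mem ha.2 hb.2⟩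
    | monomial n c =>
      induction n with
      | zero =>
        rw [aeval_monomial, pow_zero, mul_one]
        exact ⟨uu_mem_gam k α c, by rw [mul_comm]; exact huαc c⟩
      | succ n ih =>
        rw [aeval_monomial] at ih ⊢
        refine ⟨?_, ?_⟩
        · convert ih.2 using 1; ring
        · convert hα2 _ ih.1 using 1; ring
  rw [eq_top_iff]
  intro r hr
  clear hr
  obtain ⟨p, rfl⟩ := hgen r
  exact (hmain p).1

/-- Induction step along a minimal nonzero ideal. -/
theorem upperSet_eq_top_step {α : R} (hα : IsUnit α) (h2 : IsUnit (2 : R))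
    {I : Ideal R} (hI : IsAtom I) {M : Ideal R} [hM : M.IsMaximal]
    (hIM : ∀ r, r ∈ M ↔ ∀ x ∈ I, r * x = 0)
    (hfullI : upperSet (gam k (Ideal.Quotient.mk I α)) = ⊤)
    (hfullM : upperSet (gam k (Ideal.Quotient.mk M α)) = ⊤)
    (hl : ∃ c : k, c ≠ 0 ∧ c * c ≠ 1)
    (hgen : ∀ r : R, ∃ p : k[X], aeval α p = r) : upperSet (gam k α) = ⊤ := by
  classical
  letI := Ideal.Quotient.field M
  obtain ⟨half, hhalf⟩ : ∃ half : R, 2 * half = 1 := h2.exists_right_inv
  set Γ := gam k α with hΓ
  have hvα : vv α ∈ Γ := by simpa using vv_mem_gam k α 1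
  have hu1 : uu 1 ∈ Γ := by simpa using uu_mem_gam k α 1
  obtain ⟨hluI, hlvI⟩ := exists_lift hα hfullI
  obtain ⟨hluM, hlvM⟩ := exists_lift hα hfullM
  set ρ := Ideal.Quotient.mk M
  have hspan : ∀ i ∈ I, i ≠ 0 → ∀ x ∈ I, ∃ r, r * i = x := by
    intro i hi hi0 x hx
    have : Ideal.span {i} = I :=
      (hI.le_iff.1 ((Ideal.span_singleton_le_iff_mem I).2 hi)).resolve_left
        (by simpa using hi0)
    rw [← this, Ideal.mem_span_singleton'] at hx
    exact hx
  -- the quotient by the annihilator has full image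
  have hsurj : ∀ h : Matrix.SpecialLinearGroup (Fin 2) (R ⧸ M), ∃ g ∈ Γ,
      Matrix.SpecialLinearGroup.map ρ g = h := by
    intro h
    have htop : Γ.map (Matrix.SpecialLinearGroup.map ρ) = ⊤ := by
      refine eq_top_of_all (fun x => ?_) fun x => ?_
      · obtain ⟨r, rfl⟩ := Ideal.Quotient.mk_surjective x
        exact Subgroup.mem_map.2 (hluM r)
      · obtain ⟨r, rfl⟩ := Ideal.Quotient.mk_surjective x
        exact Subgroup.mem_map.2 (hlvM r)
    exact Subgroup.mem_map.1 (htop.symm ▸ Subgroup.mem_top h)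
  have hann : ∀ {a b : R}, ρ a = ρ b → ∀ x ∈ I, a * x = b * x := by
    intro a b h x hx
    have := (hIM _).1 (Ideal.Quotient.eq.1 h) x hx
    rwa [sub_mul, sub_eq_zero] at this
  by_cases hS : ∀ i ∈ I, uu i ∈ Γ → i = 0
  · refine upperSet_eq_top_of_scalar_kernel hα h2 hlvI (fun z hz hz1 => ?_) hgen
    obtain ⟨z00, z01, z10, z11⟩ := (map_eq_one_iff I z).1 hz1
    by_cases hsq : I ≤ M
    · have hII : ∀ x ∈ I, ∀ y ∈ I, x * y = 0 := fun x hx y hy => (hIM x).1 (hsq hx) y hy
      have hconj : ∀ c ∈ Γ, c 1 0 = 0 → c 0 0 * c 0 0 - 1 ∈ I → c 0 0 * c 0 0 - 1 = 0 := by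
        intro c hc h hcI
        refine hS _ hcI ?_
        rw [show c 0 0 * c 0 0 - 1 = c 0 0 * c 0 0 * 1 + -1 by ring, ← uu_add, ← uu_inv,
          ← conj_uu_of_upper c 1 h]
        exact mul_mem (mul_mem (mul_mem hc hu1) (inv_mem hc)) (inv_mem hu1)
      have hcc : z 1 0 * z 1 0 = 0 := hII _ z10 _ z10
      have hpc := hII _ z00 _ z10
      set y := z * uu 1 * z⁻¹ with hy
      have hyΓ : y ∈ Γ := mul_mem (mul_mem hz hu1) (inv_mem hz)
      have y10 : y 1 0 = 0 := by simp only [hy, conj_uu]; simp [hcc]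
      have y00 : y 0 0 = 1 - z 1 0 := by
        simp only [hy, conj_uu]; simp; linear_combination hpc
      have h1 := hconj y hyΓ y10 (by
        rw [y00]; convert I.mul_mem_left (z 1 0 - 2) z10 using 1; ring)
      rw [y00] at h1
      have hc0 : z 1 0 = 0 := h2.mul_right_eq_zero.1 (by linear_combination hcc - h1)
      have h3 := hconj z hz hc0 (by
        convert I.mul_mem_left (z 0 0 + 1) z00 using 1; ring)
      have ha : z 0 0 = 1 := by
        have hpp := hII _ z00 _ z00
        exact sub_eq_zero.1 (h2.mul_right_eq_zero.1 (by linear_combination h3 - hpp))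
      have hd := det_eq z
      rw [hc0, ha, mul_zero, sub_zero, one_mul] at hd
      refine ⟨hc0, hS _ z01 ?_, hd.trans ha.symm⟩
      convert hz using 1
      apply sl_ext <;> simp [ha, hc0, hd]
    · have hker : ∀ {a : R}, a ∈ I → ρ a = 0 → a = 0 := by
        intro a ha h
        by_contra ha0
        obtain ⟨i, hiI, hiM⟩ := SetLike.not_le_iff_exists.1 hsq
        obtain ⟨r, hr⟩ := hspan a ha ha0 i hiI
        exact hiM (hr ▸ M.mul_mem_left r (Ideal.Quotient.eq_zero_iff_mem.1 h))
      let K : Subgroup (Matrix.SpecialLinearGroup (Fin 2) R) :=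
        Γ ⊓ (Matrix.SpecialLinearGroup.map (n := Fin 2) (Ideal.Quotient.mk I)).ker
      let N := K.map (Matrix.SpecialLinearGroup.map ρ)
      haveI : N.Normal := ⟨by
        rintro _ ⟨q, hq, rfl⟩ h
        obtain ⟨hq1, hq2⟩ := Subgroup.mem_inf.1 hq
        obtain ⟨g, hg, rfl⟩ := hsurj h
        refine ⟨g * q * g⁻¹, Subgroup.mem_inf.2 ⟨mul_mem (mul_mem hg hq1) (inv_mem hg), ?_⟩, by simp⟩
        exact MonoidHom.normal_ker _ |>.conj_mem q hq2 g⟩
      have hNu : ∀ x, uu x ∈ N → x = 0 := by
        rintro x ⟨q, hq, hqx⟩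
        obtain ⟨hq1, hq2⟩ := Subgroup.mem_inf.1 hq
        obtain ⟨q00, q01, q10, q11⟩ := (map_eq_one_iff I q).1 (MonoidHom.mem_ker.1 hq2)
        have e00 : ρ (q 0 0) = 1 := by rw [← map_entry, hqx]; simp
        have e10 : ρ (q 1 0) = 0 := by rw [← map_entry, hqx]; simp
        have e11 : ρ (q 1 1) = 1 := by rw [← map_entry, hqx]; simp
        have hc := hker q10 e10
        have ha := sub_eq_zero.1 (hker q00 (by rw [map_sub, e00, map_one, sub_self]))
        have hd := sub_eq_zero.1 (hker q11 (by rw [map_sub, e11, map_one, sub_self]))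
        have hb : q 0 1 = 0 := hS _ q01 (by convert hq1 using 1; apply sl_ext <;> simp [ha, hc, hd])
        have e01 : ρ (q 0 1) = x := by rw [← map_entry, hqx]; simp
        rw [← e01, hb, map_zero]
      have h2M : (2 : R ⧸ M) ≠ 0 := by
        rw [← map_ofNat ρ 2]; exact (h2.map ρ).ne_zero
      obtain ⟨c, hc0, hc1⟩ := hl
      obtain ⟨e10, e01, e11⟩ := scalar_of_normal N hNu h2M
        ⟨algebraMap k (R ⧸ M) c, by simpa using hc0, by
          rw [← map_mul, ← map_one (algebraMap k (R ⧸ M))]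
          exact fun h => hc1 ((algebraMap k (R ⧸ M)).injective h)⟩
        _ ⟨z, Subgroup.mem_inf.2 ⟨hz, MonoidHom.mem_ker.2 hz1⟩, rfl⟩
      simp only [map_entry] at e10 e01 e11
      refine ⟨hker z10 e10, hker z01 e01, sub_eq_zero.1 (hker ?_ ?_)⟩
      · convert I.sub_mem z11 z00 using 1; ring
      · rw [map_sub, e11, sub_self]
  · push Not at hS
    obtain ⟨i, hiI, hiΓ, hi0⟩ := hS
    let S := upperSet Γ
    have hsqS : ∀ a : R, i * (a * a) ∈ S := by
      intro a
      by_cases ha : a ∈ M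
      · rw [show i * (a * a) = a * (a * i) by ring, (hIM a).1 ha i hiI, mul_zero]
        exact zero_mem S
      · have ha0 : ρ a ≠ 0 := fun h => ha (Ideal.Quotient.eq_zero_iff_mem.1 h)
        obtain ⟨g, hg, hgd⟩ := hsurj (dd (ρ a) (ρ a)⁻¹ (mul_inv_cancel₀ ha0))
        have e00 : ρ (g 0 0) = ρ a := by rw [← map_entry, hgd]; simp
        have e10 : ρ (g 1 0) = ρ 0 := by rw [← map_entry, hgd]; simp
        have h0 : g 1 0 * i = 0 := by simpa using hann e10 i hiI
        have h1 : g 0 0 * i = a * i := hann e00 i hiI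
        have key : g * uu i * g⁻¹ = uu (i * (a * a)) := by
          apply sl_ext <;> simp only [conj_uu] <;> simp
          · linear_combination g 0 0 * h0
          · linear_combination (g 0 0 + a) * h1
          · linear_combination g 1 0 * h0
          · linear_combination g 0 0 * h0
        show uu _ ∈ Γ
        rw [← key]
        exact mul_mem (mul_mem hg hiΓ) (inv_mem hg)
    have huI : ∀ x ∈ I, uu x ∈ Γ := by
      intro x hx
      obtain ⟨r, rfl⟩ := hspan i hiI hi0 x hx
      have e : r * i = i * (((r + 1) * half) * ((r + 1) * half)) -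
          i * (((r - 1) * half) * ((r - 1) * half)) := by
        linear_combination (-(r * i)) * (2 * half + 1) * hhalf
      rw [e]
      exact S.sub_mem (hsqS _) (hsqS _)
    have hvI : ∀ x ∈ I, vv x ∈ Γ := by
      intro x hx
      obtain ⟨g, hg, hgw⟩ := hsurj (uu 1 * vv (-1) * uu 1)
      have e00 : ρ (g 0 0) = ρ 0 := by
        rw [← map_entry, hgw]; simp [Matrix.mul_apply, Fin.sum_univ_two]
      have e10 : ρ (g 1 0) = ρ (-1) := by
        rw [← map_entry, hgw]; simp [Matrix.mul_apply, Fin.sum_univ_two]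
      have h0 : g 0 0 * x = 0 := by simpa using hann e00 x hx
      have h1 : g 1 0 * x = -x := by simpa using hann e10 x hx
      have key : g * uu (-x) * g⁻¹ = vv x := by
        apply sl_ext <;> simp only [conj_uu] <;> simp
        · linear_combination g 1 0 * h0
        · linear_combination g 0 0 * h0
        · linear_combination (g 1 0 - 1) * h1
        · linear_combination g 1 0 * h0
      rw [← key]
      exact mul_mem (mul_mem hg (huI _ (I.neg_mem hx))) (inv_mem hg)
    have hkerΓ : ∀ g, Matrix.SpecialLinearGroup.map (Ideal.Quotient.mk I) g = 1 → g ∈ Γ := by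
      intro g hg
      by_cases hsq : I ≤ M
      · exact kernel_mem_of_sq_zero (fun x hx y hy => (hIM x).1 (hsq hx) y hy) huI hvI hα hvα hg
      · obtain ⟨j, hjI, hjM⟩ := SetLike.not_le_iff_exists.1 hsq
        have hj0 : j ≠ 0 := fun h => hjM (h ▸ M.zero_mem)
        obtain ⟨y, hy, hjy⟩ : ∃ y ∈ I, j * y ≠ 0 := by
          by_contra h
          push Not at h
          exact hjM ((hIM j).2 h)
        obtain ⟨r, hr⟩ := hspan (j * y) (I.mul_mem_left _ hy) hjy j hjI
        set e := r * y with he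
        have heI : e ∈ I := I.mul_mem_left _ hy
        have he1 : ∀ x ∈ I, e * x = x := by
          intro x hx
          obtain ⟨s, rfl⟩ := hspan j hjI hj0 x hx
          rw [he]; linear_combination s * hr
        refine kernel_mem_of_field heI he1 (fun x hx hx0 => ?_) huI hvI hg
        obtain ⟨s, hs⟩ := hspan x hx hx0 e heI
        exact ⟨s * e, I.mul_mem_left _ heI, by rw [mul_assoc, he1 x hx, hs]⟩
    rw [eq_top_iff]
    intro r hr
    clear hr
    obtain ⟨g, hg, hgr⟩ := hluI r
    have h1 := mul_mem hg (hkerΓ (g⁻¹ * uu r) (by rw [map_mul, map_inv, map_uu, hgr, inv_mul_cancel]))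
    rwa [mul_inv_cancel_left] at h1

end Step

theorem exists_sq_ne_one {k : Type*} [Field k] (h5 : 5 ≤ Nat.card k) :
    ∃ c : k, c ≠ 0 ∧ c * c ≠ 1 := by
  haveI : Finite k := Nat.finite_of_card_ne_zero (by omega)
  by_contra h
  push Not at h
  have hle : (Set.univ : Set k) ⊆ {0, 1, -1} := by
    intro c _
    by_cases hc : c = 0
    · exact Or.inl hc
    · rcases mul_self_eq_one_iff.1 (h c hc) with h1 | h1
      exacts [Or.inr (Or.inl h1), Or.inr (Or.inr h1)]
  have h1 := Set.ncard_le_ncard hle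
  rw [Set.ncard_univ] at h1
  have h2 := Set.ncard_insert_le (0 : k) {1, -1}
  have h3 := Set.ncard_insert_le (1 : k) {-1}
  rw [Set.ncard_singleton] at h3
  omega

theorem five_le_card {k : Type*} [Field k] [Finite k] (h2 : (2 : k) ≠ 0) (h3 : Nat.card k ≠ 3) :
    5 ≤ Nat.card k := by
  have h0 : ((Nat.card k : ℕ) : k) = 0 := by
    haveI := Fintype.ofFinite k
    rw [Nat.card_eq_fintype_card]
    exact Nat.cast_card_eq_zero k
  have h1 : 1 < Nat.card k := Finite.one_lt_card
  by_contra h
  push Not at h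
  interval_cases hn : Nat.card k
  · exact h2 (by exact_mod_cast h0)
  · exact h3 rfl
  · exact mul_ne_zero h2 h2 (by norm_num; exact_mod_cast h0)

theorem upperSet_eq_top_of_finite {k : Type*} [Field k] [Finite k] (h2 : (2 : k) ≠ 0)
    (h5 : 5 ≤ Nat.card k) : ∀ (n : ℕ) {R : Type u} [CommRing R] [Algebra k R] [Finite R] (α : R),
    IsUnit α → (∀ r : R, ∃ p : k[X], aeval α p = r) → Nat.card R = n →
    upperSet (gam k α) = ⊤ := by
  intro n
  induction n using Nat.strong_induction_on with
  | _ n ih =>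
  intro R _ _ _ α hα hgen hn
  classical
  rcases subsingleton_or_nontrivial R with hR | hR
  · rw [eq_top_iff]; intro r _; rw [Subsingleton.elim r 0]; exact zero_mem _
  by_cases hF : IsField R
  · letI := hF.toField
    exact upperSet_eq_top_of_finite_field h2 h5 α hα.ne_zero hgen
  obtain ⟨J, hJ, -⟩ := Ring.not_isField_iff_exists_ideal_bot_lt_and_lt_top.1 hF
  haveI : Finite (Ideal R) := Finite.of_injective _ (SetLike.coe_injective (A := Ideal R) (B := R))
  obtain ⟨I, hI, -⟩ := (eq_bot_or_exists_atom_le J).resolve_left hJ.ne'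
  let M : Ideal R :=
    { carrier := {r | ∀ x ∈ I, r * x = 0}
      zero_mem' := fun x _ => zero_mul x
      add_mem' := fun {a b} ha hb x hx => by rw [add_mul, ha x hx, hb x hx, add_zero]
      smul_mem' := fun c a ha x hx => by rw [smul_eq_mul, mul_assoc, ha x hx, mul_zero] }
  have hIM : ∀ r, r ∈ M ↔ ∀ x ∈ I, r * x = 0 := fun r => Iff.rfl
  obtain ⟨i, hiI, hi0⟩ := Submodule.exists_mem_ne_zero_of_ne_bot hI.1
  have hspan : ∀ y ∈ I, y ≠ 0 → I ≤ Ideal.span {y} := fun y hy hy0 =>
    ((hI.le_iff.1 ((Ideal.span_singleton_le_iff_mem I).2 hy)).resolve_left (by simpa using hy0)).ge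
  haveI hM : M.IsMaximal := by
    refine Ideal.isMaximal_iff.2 ⟨fun h => hi0 (by simpa using h i hiI), fun J x hMJ hxM hxJ => ?_⟩
    obtain ⟨y, hy, hxy⟩ : ∃ y ∈ I, x * y ≠ 0 := by
      by_contra h
      push Not at h
      exact hxM h
    obtain ⟨r, hr⟩ := Ideal.mem_span_singleton'.1 (hspan _ (I.mul_mem_left _ hy) hxy hy)
    have : r * x - 1 ∈ M := by
      intro z hz
      obtain ⟨s, rfl⟩ := Ideal.mem_span_singleton'.1 (hspan y hy (fun h => hxy (by rw [h, mul_zero])) hz)
      linear_combination s * hr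
    have := J.sub_mem (J.mul_mem_left r hxJ) (hMJ this)
    rwa [sub_sub_cancel] at this
  have hMbot : M ≠ ⊥ := by
    intro h
    exact hF (Ring.isField_iff_maximal_bot.2 (h ▸ hM))
  haveI : ∀ P : Ideal R, Finite (R ⧸ P) := fun P => Finite.of_surjective _ Ideal.Quotient.mk_surjective
  have hquot : ∀ P : Ideal R, P ≠ ⊥ → upperSet (gam k (Ideal.Quotient.mk P α)) = ⊤ := by
    intro P hP
    refine ih _ ?_ (Ideal.Quotient.mk P α) (hα.map _) (fun r => ?_) rfl
    · rw [← hn]
      refine lt_of_le_of_ne (Nat.card_le_card_of_surjective _ Ideal.Quotient.mk_surjective)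
        fun h => hP ?_
      have hbij := (Nat.bijective_iff_surjective_and_card _).2
        ⟨Ideal.Quotient.mk_surjective, h.symm⟩
      rw [← Ideal.mk_ker (I := P)]
      exact (RingHom.injective_iff_ker_eq_bot _).1 hbij.1
    · obtain ⟨r, rfl⟩ := Ideal.Quotient.mk_surjective r
      obtain ⟨p, rfl⟩ := hgen r
      exact ⟨p, aeval_algHom_apply (Ideal.Quotient.mkₐ k P) α p⟩
  have h2R : IsUnit (2 : R) := by
    have := (IsUnit.mk0 _ h2).map (algebraMap k R)
    rwa [map_ofNat] at this
  exact upperSet_eq_top_step hα h2R hI hIM (hquot I hI.1) (hquot M hMbot)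
    (exists_sq_ne_one h5) hgen

/-- **Generation**: over a finite dimensional algebra `R = k[α]`, `α` a unit, the group generated by
`uu k` and `vv (k α)` contains all upper unitriangular elements. -/
theorem upperSet_eq_top {k : Type*} [Field k] (h2 : (2 : k) ≠ 0) (h3 : Nat.card k ≠ 3)
    {R : Type u} [CommRing R] [Algebra k R] [Module.Finite k R] (α : R) (hα : IsUnit α)
    (hgen : ∀ r : R, ∃ p : k[X], aeval α p = r) : upperSet (gam k α) = ⊤ := by
  rcases finite_or_infinite k with hk | hk
  · haveI : Finite R := Module.finite_of_finite k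
    exact upperSet_eq_top_of_finite h2 (five_le_card h2 h3) _ α hα hgen rfl
  · obtain ⟨f, hf, hf0⟩ := Algebra.IsIntegral.isIntegral (R := k) α
    exact upperSet_eq_top_of_infinite (f := f) hf rfl hf0 hα h2 hgen

end Cfsg.Agent.RootSub.SL2Gen
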